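import Mathlib
import Cfsg.Prelude.Def_Transfer
import Cfsg.Agent.Lib.Helper54.Frobenius
import Cfsg.Agent.Lib.Helper55.Tate
import Cfsg.Agent.Lib.Helper2.Transfer

/-!
# The Hall–Wielandt transfer theorem

`P` a Sylow `p`-subgroup of `G`, `Q ≤ P` weakly closed in `P` with respect to `G`, and
`[u, z, …, z] = 1` (`p - 1` entries `z`) for `u ∈ P`, `z ∈ Q`.  Then `N_G(Q)` controls
`p`-transfer: `O^p(N_G(Q)) = O^p(G) ∩ N_G(Q)`.

* `power_sum`, `prod_cz_eq_one`: the norm identity `∏_{j<p} w^{z^j} = ∏ [w,z;i]^{C(p,i+1)}`.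
* `prod_eq_prod_fixed`: products over a set with a permutation of order `p`.
* `St_all`: every `N_G(Q)`-stable multiplicative map `P → A` (`A` abelian of exponent `p`)
  is `G`-stable.
* `exists_extension_prime`, `exists_extension`: homomorphisms from `N_G(Q)` to `p`-groups extend
  to `G`.
* `hall_wielandt`: the theorem.
-/

set_option autoImplicit false
set_option linter.unusedSectionVars false
set_option linter.style.haveILetI false

namespace Cfsg.Agent.Lib.Helper70.HW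

section PowerSum

variable {G : Type*} [Group G] {A : Type*} [CommGroup A]

/-- conjugation by `z ^ j` -/
def cz (z : G) (j : ℕ) (w : G) : G := (z ^ j)⁻¹ * w * z ^ j

/-- the commutator map `y ↦ [y, z]` -/
def dz (z : G) (y : G) : G := y⁻¹ * z⁻¹ * y * z

theorem cz_succ (z : G) (j : ℕ) (w : G) : cz z (j + 1) w = cz z j (z⁻¹ * w * z) := by
  unfold cz; rw [pow_succ']; group

theorem cz_mul (z : G) (j : ℕ) (w w' : G) : cz z j (w * w') = cz z j w * cz z j w' := by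
  unfold cz; group

theorem conj_eq_mul_dz (z w : G) : z⁻¹ * w * z = w * dz z w := by unfold dz; group

theorem power_sum (R : Subgroup G) (z : G) (hz : ∀ w ∈ R, z⁻¹ * w * z ∈ R) (μ : G → A)
    (hμ : ∀ x ∈ R, ∀ y ∈ R, μ (x * y) = μ x * μ y) :
    ∀ (n : ℕ) (w : G), w ∈ R → ∏ j ∈ Finset.range n, μ (cz z j w)
      = ∏ i ∈ Finset.range n, μ ((dz z)^[i] w) ^ (n.choose (i + 1)) := by
  have hcz : ∀ j : ℕ, ∀ w ∈ R, cz z j w ∈ R := by
    intro j
    induction j with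
    | zero => intro w hw; simpa [cz] using hw
    | succ j ih => intro w hw; rw [cz_succ]; exact ih _ (hz w hw)
  have hdz : ∀ w ∈ R, dz z w ∈ R := by
    intro w hw
    have h1 : dz z w = w⁻¹ * (z⁻¹ * w * z) := by unfold dz; group
    rw [h1]; exact R.mul_mem (R.inv_mem hw) (hz w hw)
  intro n
  induction n with
  | zero => intro w _; simp
  | succ n ih =>
    intro w hw
    have hL : ∏ j ∈ Finset.range (n + 1), μ (cz z j w)
        = μ w * ((∏ j ∈ Finset.range n, μ (cz z j w)) *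
            ∏ j ∈ Finset.range n, μ (cz z j (dz z w))) := by
      rw [Finset.prod_range_succ', ← Finset.prod_mul_distrib]
      have h0 : cz z 0 w = w := by simp [cz]
      rw [h0, mul_comm]
      congr 1
      apply Finset.prod_congr rfl
      intro j _
      rw [cz_succ, conj_eq_mul_dz, cz_mul, hμ _ (hcz j w hw) _ (hcz j _ (hdz w hw))]
    have hR : ∏ i ∈ Finset.range (n + 1), μ ((dz z)^[i] w) ^ ((n + 1).choose (i + 1))
        = μ w * ((∏ i ∈ Finset.range n, μ ((dz z)^[i] w) ^ (n.choose (i + 1))) *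
            ∏ i ∈ Finset.range n, μ ((dz z)^[i] (dz z w)) ^ (n.choose (i + 1))) := by
      have h1 : ∀ i, μ ((dz z)^[i] w) ^ ((n + 1).choose (i + 1))
          = μ ((dz z)^[i] w) ^ (n.choose i) * μ ((dz z)^[i] w) ^ (n.choose (i + 1)) := by
        intro i; rw [Nat.choose_succ_succ', pow_add]
      have h2 : ∏ i ∈ Finset.range (n + 1), μ ((dz z)^[i] w) ^ (n.choose i)
          = μ w * ∏ i ∈ Finset.range n, μ ((dz z)^[i] (dz z w)) ^ (n.choose (i + 1)) := by
        rw [Finset.prod_range_succ', mul_comm]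
        congr 1
        simp
      have h3 : ∏ i ∈ Finset.range (n + 1), μ ((dz z)^[i] w) ^ (n.choose (i + 1))
          = ∏ i ∈ Finset.range n, μ ((dz z)^[i] w) ^ (n.choose (i + 1)) := by
        rw [Finset.prod_range_succ, Nat.choose_succ_self, pow_zero, mul_one]
      calc ∏ i ∈ Finset.range (n + 1), μ ((dz z)^[i] w) ^ ((n + 1).choose (i + 1))
          = ∏ i ∈ Finset.range (n + 1), (μ ((dz z)^[i] w) ^ (n.choose i) *
              μ ((dz z)^[i] w) ^ (n.choose (i + 1))) := Finset.prod_congr rfl (fun i _ => h1 i)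
        _ = (∏ i ∈ Finset.range (n + 1), μ ((dz z)^[i] w) ^ (n.choose i)) *
              ∏ i ∈ Finset.range (n + 1), μ ((dz z)^[i] w) ^ (n.choose (i + 1)) :=
            Finset.prod_mul_distrib
        _ = _ := by rw [h2, h3, mul_assoc, mul_comm (∏ i ∈ Finset.range n,
              μ ((dz z)^[i] (dz z w)) ^ (n.choose (i + 1)))]
    rw [hL, hR, ih w hw, ih (dz z w) (hdz w hw)]

theorem prod_cz_eq_one {p : ℕ} (hp : p.Prime) (hA : ∀ a : A, a ^ p = 1) (R : Subgroup G) (z : G)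
    (hz : ∀ w ∈ R, z⁻¹ * w * z ∈ R) (μ : G → A) (hμ : ∀ x ∈ R, ∀ y ∈ R, μ (x * y) = μ x * μ y)
    (w : G) (hw : w ∈ R) (hcomm : (fun y : G => y⁻¹ * z⁻¹ * y * z)^[p - 1] w = 1) :
    ∏ j ∈ Finset.range p, μ (cz z j w) = 1 := by
  rw [power_sum R z hz μ hμ p w hw]
  apply Finset.prod_eq_one
  intro i hi
  rw [Finset.mem_range] at hi
  by_cases hi' : i = p - 1
  · have hc : (dz z)^[p - 1] w = 1 := hcomm
    have h1 : μ 1 = 1 := by
      have h2 := hμ 1 R.one_mem 1 R.one_mem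
      rw [mul_one] at h2
      exact mul_eq_left.mp h2.symm
    rw [hi', hc, h1, one_pow]
  · have h1 : p ∣ p.choose (i + 1) := hp.dvd_choose_self (Nat.succ_ne_zero i) (by omega)
    obtain ⟨k, hk⟩ := h1
    rw [hk, pow_mul, hA, one_pow]

end PowerSum

section Orbit

/-- A product over a finite set carrying a permutation of order `p`, all of whose nontrivial
orbit products vanish, is the product over the fixed points. -/
theorem prod_eq_prod_fixed {X : Type*} [Fintype X] [DecidableEq X] {A : Type*} [CommMonoid A]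
    {p : ℕ} (hp : p.Prime) (σ : Equiv.Perm X) (hσ : σ ^ p = 1) (F : X → A)
    (hF : ∀ x, σ x ≠ x → ∏ j ∈ Finset.range p, F ((σ ^ j) x) = 1) :
    ∏ x, F x = ∏ x ∈ Finset.univ.filter (fun x => σ x = x), F x := by
  classical
  rw [← Finset.prod_filter_mul_prod_filter_not Finset.univ (fun x => σ x = x) F]
  have key : ∏ x ∈ Finset.univ.filter (fun x => ¬ σ x = x), F x = 1 := by
    apply Finset.prod_cancels_of_partition_cancels (Equiv.Perm.SameCycle.setoid σ)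
    intro x hx
    rw [Finset.mem_filter] at hx
    have hx' : σ x ≠ x := hx.2
    have hper : ∀ d : ℕ, 0 < d → d < p → (σ ^ d) x ≠ x := by
      intro d hd0 hdp hd
      apply hx'
      have h1 : Function.IsPeriodicPt σ d x := by
        show (σ : X → X)^[d] x = x
        rw [Equiv.Perm.iterate_eq_pow]; exact hd
      have h2 : Function.IsPeriodicPt σ p x := by
        show (σ : X → X)^[p] x = x
        rw [Equiv.Perm.iterate_eq_pow, hσ]; rfl
      have h3 := h1.gcd h2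
      have h4 : d.gcd p = 1 := by
        rw [Nat.gcd_comm]
        exact (Nat.Prime.coprime_iff_not_dvd hp).mpr (Nat.not_dvd_of_pos_of_lt hd0 hdp)
      rw [h4] at h3
      exact h3
    have hcls : (Finset.univ.filter (fun x => ¬ σ x = x)).filter
          (fun a => (Equiv.Perm.SameCycle.setoid σ) a x)
        = (Finset.range p).image (fun j => (σ ^ j) x) := by
      ext a
      simp only [Finset.mem_filter, Finset.mem_univ, true_and, Finset.mem_image,
        Finset.mem_range]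
      constructor
      · rintro ⟨-, hax⟩
        obtain ⟨i, hi⟩ : ∃ i : ℤ, (σ ^ i) a = x := hax
        have hp0 : (0 : ℤ) < p := by exact_mod_cast hp.pos
        have ha : a = (σ ^ (-i)) x := by
          rw [← hi, ← Equiv.Perm.mul_apply, ← zpow_add, neg_add_cancel, zpow_zero]; rfl
        have hr0 : 0 ≤ (-i) % (p : ℤ) := Int.emod_nonneg _ hp0.ne'
        have hr1 : (-i) % (p : ℤ) < p := Int.emod_lt_of_pos _ hp0
        refine ⟨((-i) % (p : ℤ)).toNat, ?_, ?_⟩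
        · have := Int.toNat_of_nonneg hr0
          omega
        · have e1 : -i = (((-i) % (p : ℤ)).toNat : ℤ) + (p : ℤ) * ((-i) / (p : ℤ)) := by
            rw [Int.toNat_of_nonneg hr0]; exact (Int.emod_add_mul_ediv (-i) p).symm
          have e2 : σ ^ (-i) = σ ^ ((-i) % (p : ℤ)).toNat := by
            conv_lhs => rw [e1]
            rw [zpow_add, zpow_mul, zpow_natCast, zpow_natCast, hσ, one_zpow, mul_one]
          rw [ha, e2]
      · rintro ⟨j, -, rfl⟩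
        refine ⟨?_, ?_⟩
        · intro h
          apply hx'
          have h1 : (σ ^ j) (σ x) = (σ ^ j) x := by
            rw [← Equiv.Perm.mul_apply, ← pow_succ, pow_succ', Equiv.Perm.mul_apply]; exact h
          exact (σ ^ j).injective h1
        · show ∃ i : ℤ, (σ ^ i) ((σ ^ j) x) = x
          refine ⟨-(j : ℤ), ?_⟩
          rw [← zpow_natCast, ← Equiv.Perm.mul_apply, ← zpow_add, neg_add_cancel, zpow_zero]; rfl
    rw [hcls, Finset.prod_image]
    · exact hF x hx'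
    · intro i hi j hj hij
      rw [Finset.coe_range, Set.mem_Iio] at hi hj
      have hij' : (σ ^ i) x = (σ ^ j) x := hij
      by_contra hne
      rcases lt_or_gt_of_ne hne with hlt | hlt
      · apply hper (j - i) (by omega) (by omega)
        have e : σ ^ j = σ ^ i * σ ^ (j - i) := by rw [← pow_add]; congr 1; omega
        rw [e, Equiv.Perm.mul_apply] at hij'
        exact ((σ ^ i).injective hij').symm
      · apply hper (i - j) (by omega) (by omega)
        have e : σ ^ i = σ ^ j * σ ^ (i - j) := by rw [← pow_add]; congr 1; omega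
        rw [e, Equiv.Perm.mul_apply] at hij'
        exact (σ ^ j).injective hij'
  rw [key, mul_one]

end Orbit

section Main

variable {G : Type*} [Group G]

/-- the conjugate `g⁻¹ R g` -/
def cj (g : G) (R : Subgroup G) : Subgroup G := R.comap (MulAut.conj g).toMonoidHom

theorem mem_cj {g x : G} {R : Subgroup G} : x ∈ cj g R ↔ g * x * g⁻¹ ∈ R := Iff.rfl

theorem card_cj (g : G) (R : Subgroup G) : Nat.card (cj g R) = Nat.card R := by
  refine Nat.card_congr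
    { toFun := fun x => ⟨g * x.1 * g⁻¹, x.2⟩
      invFun := fun r => ⟨g⁻¹ * r.1 * g, by
        rw [mem_cj]
        have e : g * (g⁻¹ * r.1 * g) * g⁻¹ = r.1 := by group
        rw [e]; exact r.2⟩
      left_inv := fun x => Subtype.ext (by show g⁻¹ * (g * x.1 * g⁻¹) * g = x.1; group)
      right_inv := fun r => Subtype.ext (by show g * (g⁻¹ * r.1 * g) * g⁻¹ = r.1; group) }

theorem mem_normalizer_cj {g x : G} {R : Subgroup G} :
    x ∈ Subgroup.normalizer (cj g R : Set G) ↔ g * x * g⁻¹ ∈ Subgroup.normalizer (R : Set G) := by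
  rw [Subgroup.mem_normalizer_iff, Subgroup.mem_normalizer_iff]
  constructor
  · intro h y
    have h1 := h (g⁻¹ * y * g)
    rw [mem_cj, mem_cj] at h1
    have e1 : g * (g⁻¹ * y * g) * g⁻¹ = y := by group
    have e2 : g * (x * (g⁻¹ * y * g) * x⁻¹) * g⁻¹ = g * x * g⁻¹ * y * (g * x * g⁻¹)⁻¹ := by group
    rw [e1, e2] at h1
    exact h1
  · intro h y
    rw [mem_cj, mem_cj]
    have h1 := h (g * y * g⁻¹)
    have e2 : g * x * g⁻¹ * (g * y * g⁻¹) * (g * x * g⁻¹)⁻¹ = g * (x * y * x⁻¹) * g⁻¹ := by group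
    rw [e2] at h1
    exact h1

theorem conj_mem_of_mem_normalizer {R : Subgroup G} {ℓ w : G}
    (hℓ : ℓ ∈ Subgroup.normalizer (R : Set G)) (hw : w ∈ R) : ℓ⁻¹ * w * ℓ ∈ R := by
  have h1 := (Subgroup.mem_normalizer_iff.mp (Subgroup.inv_mem _ hℓ) w).mp hw
  rwa [inv_inv] at h1

theorem conj_mem_of_mem_normalizer' {R : Subgroup G} {ℓ w : G}
    (hℓ : ℓ ∈ Subgroup.normalizer (R : Set G)) (hw : w ∈ R) : ℓ * w * ℓ⁻¹ ∈ R :=
  (Subgroup.mem_normalizer_iff.mp hℓ w).mp hw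

/-- weak closure: if `g⁻¹ Q g ≤ P` then `g` normalizes `Q`. -/
theorem mem_normalizer_of_wc {P Q : Subgroup G} (hwc : Cfsg.IsWeaklyClosed Q P) {g : G}
    (hg : ∀ q ∈ Q, g⁻¹ * q * g ∈ P) : g ∈ Subgroup.normalizer (Q : Set G) := by
  have h1 : Q.map (MulAut.conj g⁻¹).toMonoidHom ≤ P := by
    rintro _ ⟨q, hq, rfl⟩
    have h2 := hg q hq
    show g⁻¹ * q * g⁻¹⁻¹ ∈ P
    rwa [inv_inv]
  have h2 := hwc.2 g⁻¹ h1
  have h3 : g⁻¹ ∈ Subgroup.normalizer (Q : Set G) := by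
    rw [Subgroup.mem_normalizer_iff]
    intro h
    constructor
    · intro hh
      rw [← h2]
      exact ⟨h, hh, rfl⟩
    · intro hh
      rw [← h2] at hh
      obtain ⟨q, hq, hqe⟩ := hh
      have e : g⁻¹ * q * g⁻¹⁻¹ = g⁻¹ * h * g⁻¹⁻¹ := hqe
      have e2 : q = h := by
        have e3 := congrArg (fun t => g * t * g⁻¹) e
        simpa [mul_assoc] using e3
      rw [← e2]; exact hq
  have h4 := Subgroup.inv_mem _ h3
  rwa [inv_inv] at h4

theorem le_normalizer_of_wc {P Q : Subgroup G} (hwc : Cfsg.IsWeaklyClosed Q P) :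
    P ≤ Subgroup.normalizer (Q : Set G) := by
  intro x hx
  apply mem_normalizer_of_wc hwc
  intro q hq
  exact P.mul_mem (P.mul_mem (P.inv_mem hx) (hwc.1 hq)) hx

variable [Finite G] {p : ℕ} [Fact p.Prime]

/-- the hypotheses of the stability theorem -/
structure Hyp (P : Sylow p G) (Q : Subgroup G) {A : Type*} [CommGroup A] (Λ : G → A) : Prop where
  wc : Cfsg.IsWeaklyClosed Q (P : Subgroup G)
  comm : ∀ u ∈ (P : Subgroup G), ∀ z ∈ Q, (fun y : G => y⁻¹ * z⁻¹ * y * z)^[p - 1] u = 1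
  exp : ∀ a : A, a ^ p = 1
  mul : ∀ x ∈ (P : Subgroup G), ∀ y ∈ (P : Subgroup G), Λ (x * y) = Λ x * Λ y
  stab : ∀ u ∈ (P : Subgroup G), ∀ n ∈ Subgroup.normalizer (Q : Set G),
    n⁻¹ * u * n ∈ (P : Subgroup G) → Λ (n⁻¹ * u * n) = Λ u

variable {P : Sylow p G} {Q : Subgroup G} {A : Type*} [CommGroup A] {Λ : G → A}

theorem Hyp.one (H : Hyp P Q Λ) : Λ 1 = 1 := by
  have h := H.mul 1 (Subgroup.one_mem _) 1 (Subgroup.one_mem _)
  rw [mul_one] at h
  exact mul_eq_left.mp h.symm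

theorem Hyp.inv (H : Hyp P Q Λ) {x : G} (hx : x ∈ (P : Subgroup G)) : Λ x⁻¹ = (Λ x)⁻¹ := by
  have h := H.mul x hx x⁻¹ (Subgroup.inv_mem _ hx)
  rw [mul_inv_cancel, H.one] at h
  exact eq_inv_of_mul_eq_one_right h.symm

theorem Hyp.conjP (H : Hyp P Q Λ) {s w : G} (hs : s ∈ (P : Subgroup G))
    (hw : w ∈ (P : Subgroup G)) : Λ (s⁻¹ * w * s) = Λ w := by
  rw [H.mul _ (Subgroup.mul_mem _ (Subgroup.inv_mem _ hs) hw) _ hs,
    H.mul _ (Subgroup.inv_mem _ hs) _ hw, H.inv hs, mul_comm ((Λ s)⁻¹) (Λ w), mul_assoc,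
    inv_mul_cancel, mul_one]

theorem Hyp.Q_le (H : Hyp P Q Λ) : Q ≤ (P : Subgroup G) := H.wc.1

/-- weak closure: if `g⁻¹ Q g ≤ P` then `g` normalizes `Q`. -/
theorem Hyp.mem_normalizer (H : Hyp P Q Λ) {g : G}
    (hg : ∀ q ∈ Q, g⁻¹ * q * g ∈ (P : Subgroup G)) : g ∈ Subgroup.normalizer (Q : Set G) :=
  mem_normalizer_of_wc H.wc hg

theorem Hyp.P_le_normalizer (H : Hyp P Q Λ) :
    (P : Subgroup G) ≤ Subgroup.normalizer (Q : Set G) := by
  intro x hx
  apply H.mem_normalizer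
  intro q hq
  exact Subgroup.mul_mem _ (Subgroup.mul_mem _ (Subgroup.inv_mem _ hx) (H.Q_le hq)) hx

/-- stability of `Λ` under conjugation on `R` -/
def St (P : Sylow p G) {A : Type*} (Λ : G → A) (R : Subgroup G) : Prop :=
  ∀ g : G, (∀ u ∈ R, g⁻¹ * u * g ∈ (P : Subgroup G)) → ∀ u ∈ R, Λ (g⁻¹ * u * g) = Λ u

theorem St_of_Q_le (H : Hyp P Q Λ) {R : Subgroup G} (hR : R ≤ (P : Subgroup G)) (hQR : Q ≤ R) :
    St P Λ R := by
  intro g hg u hu
  exact H.stab u (hR hu) g (H.mem_normalizer (fun q hq => hg q (hQR hq))) (hg u hu)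

/-- an element of `Q` normalizing `R₀`, outside `R₀`, with `p`-th power in `R₀`. -/
theorem exists_z (H : Hyp P Q Λ) {R₀ : Subgroup G} (hR₀ : R₀ ≤ (P : Subgroup G))
    (hQ : ¬ Q ≤ R₀) :
    ∃ z ∈ Q, z ∈ Subgroup.normalizer (R₀ : Set G) ∧ z ∉ R₀ ∧ z ^ p ∈ R₀ := by
  have hp : p.Prime := Fact.out
  have hQn : ∀ r ∈ R₀, ∀ q ∈ Q, r⁻¹ * q * r ∈ Q := fun r hr q hq =>
    conj_mem_of_mem_normalizer (H.P_le_normalizer (hR₀ hr)) hq
  have hQn' : ∀ r ∈ R₀, ∀ q ∈ Q, r * q * r⁻¹ ∈ Q := fun r hr q hq =>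
    conj_mem_of_mem_normalizer' (H.P_le_normalizer (hR₀ hr)) hq
  -- the subgroup `R₀ Q`
  obtain ⟨T, hT⟩ : ∃ T : Subgroup G, ∀ x, x ∈ T ↔ ∃ r ∈ R₀, ∃ q ∈ Q, x = r * q := by
    refine ⟨{ carrier := {x | ∃ r ∈ R₀, ∃ q ∈ Q, x = r * q}
              mul_mem' := ?_
              one_mem' := ⟨1, R₀.one_mem, 1, Q.one_mem, by simp⟩
              inv_mem' := ?_ }, fun x => Iff.rfl⟩
    · rintro _ _ ⟨r, hr, q, hq, rfl⟩ ⟨r', hr', q', hq', rfl⟩
      refine ⟨r * r', R₀.mul_mem hr hr', (r'⁻¹ * q * r') * q', Q.mul_mem (hQn r' hr' q hq) hq', ?_⟩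
      group
    · rintro _ ⟨r, hr, q, hq, rfl⟩
      refine ⟨r⁻¹, R₀.inv_mem hr, r * q⁻¹ * r⁻¹, hQn' r hr _ (Q.inv_mem hq), ?_⟩
      group
  have hR₀T : R₀ ≤ T := fun r hr => (hT r).mpr ⟨r, hr, 1, Q.one_mem, by simp⟩
  have hQT : Q ≤ T := fun q hq => (hT q).mpr ⟨1, R₀.one_mem, q, hq, by simp⟩
  have hTP : T ≤ (P : Subgroup G) := by
    intro x hx
    obtain ⟨r, hr, q, hq, rfl⟩ := (hT x).mp hx
    exact Subgroup.mul_mem _ (hR₀ hr) (H.Q_le hq)
  have hlt : R₀ < T := lt_of_le_of_ne hR₀T (fun e => hQ (e ▸ hQT))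
  obtain ⟨y, hyT, hyN, hyR⟩ :=
    Cfsg.Agent.Lib.Helper54.exists_mem_normalizer_not_mem (P.2.to_le hTP) hlt
  obtain ⟨r, hr, q, hq, rfl⟩ := (hT y).mp hyT
  have hqN : q ∈ Subgroup.normalizer (R₀ : Set G) := by
    have e : q = r⁻¹ * (r * q) := by group
    rw [e]
    exact Subgroup.mul_mem _ (Subgroup.inv_mem _ (Subgroup.le_normalizer hr)) hyN
  have hqR : q ∉ R₀ := fun h => hyR (R₀.mul_mem hr h)
  -- minimal order
  obtain ⟨𝒵, h𝒵⟩ : ∃ 𝒵 : Set G, 𝒵 = {x | x ∈ Q ∧ x ∈ Subgroup.normalizer (R₀ : Set G) ∧ x ∉ R₀} :=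
    ⟨_, rfl⟩
  have hne : 𝒵.Nonempty := ⟨q, by rw [h𝒵]; exact ⟨hq, hqN, hqR⟩⟩
  obtain ⟨z, hz, hmin⟩ := WellFounded.has_min (measure (fun x : G => orderOf x)).wf 𝒵 hne
  rw [h𝒵] at hz
  obtain ⟨hzQ, hzN, hzR⟩ := hz
  refine ⟨z, hzQ, hzN, hzR, ?_⟩
  by_contra hzp
  have hmem : z ^ p ∈ 𝒵 := by
    rw [h𝒵]; exact ⟨Q.pow_mem hzQ p, Subgroup.pow_mem _ hzN p, hzp⟩
  apply hmin (z ^ p) hmem
  show orderOf (z ^ p) < orderOf z
  have hz1 : z ≠ 1 := fun h => hzR (h ▸ R₀.one_mem)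
  obtain ⟨k, hk⟩ := P.2 ⟨z, H.Q_le hzQ⟩
  have hk' : z ^ p ^ k = 1 := by simpa using congrArg Subtype.val hk
  obtain ⟨j, -, hj⟩ := (Nat.dvd_prime_pow hp).mp (orderOf_dvd_of_pow_eq_one hk')
  have hj0 : j ≠ 0 := by
    intro h0
    rw [h0, pow_zero, orderOf_eq_one_iff] at hj
    exact hz1 hj
  have hdvd : p ∣ orderOf z := by rw [hj]; exact dvd_pow_self p hj0
  rw [orderOf_pow_of_dvd hp.ne_zero hdvd]
  exact Nat.div_lt_self (orderOf_pos z) hp.one_lt

/-- a conjugate of `R` inside `P` whose `P`-normalizer is a Sylow subgroup of its normalizer. -/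
theorem exists_fully_normalized (P : Sylow p G) (R : Subgroup G) (hR : R ≤ (P : Subgroup G)) :
    ∃ (R₀ : Subgroup G) (h₀ : G), R₀ = cj h₀ R ∧ (∀ u ∈ R, h₀⁻¹ * u * h₀ ∈ (P : Subgroup G)) ∧
      ∃ S' : Sylow p (Subgroup.normalizer (R₀ : Set G)),
        (S' : Subgroup (Subgroup.normalizer (R₀ : Set G))) =
          ((P : Subgroup G) ⊓ Subgroup.normalizer (R₀ : Set G)).subgroupOf
            (Subgroup.normalizer (R₀ : Set G)) := by
  classical
  have hne : Nonempty {h : G // ∀ u ∈ R, h⁻¹ * u * h ∈ (P : Subgroup G)} :=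
    ⟨⟨1, fun u hu => by simpa using hR hu⟩⟩
  obtain ⟨h₀, hmax⟩ := Finite.exists_max
    (fun h : {h : G // ∀ u ∈ R, h⁻¹ * u * h ∈ (P : Subgroup G)} =>
      Nat.card ↥((P : Subgroup G) ⊓ Subgroup.normalizer (cj h.1 R : Set G)))
  obtain ⟨R₀, hR₀⟩ : ∃ R₀ : Subgroup G, R₀ = cj h₀.1 R := ⟨_, rfl⟩
  refine ⟨R₀, h₀.1, hR₀, h₀.2, ?_⟩
  have hR₀P : R₀ ≤ (P : Subgroup G) := by
    intro x hx
    rw [hR₀, mem_cj] at hx
    have h1 := h₀.2 _ hx
    have e : h₀.1⁻¹ * (h₀.1 * x * h₀.1⁻¹) * h₀.1 = x := by group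
    rwa [e] at h1
  have hSp : IsPGroup p (((P : Subgroup G) ⊓ Subgroup.normalizer (R₀ : Set G)).subgroupOf
      (Subgroup.normalizer (R₀ : Set G))) := (P.2.to_le inf_le_left).comap_subtype
  obtain ⟨S', hS'⟩ := hSp.exists_le_sylow
  refine ⟨S', ?_⟩
  symm
  apply Subgroup.eq_of_le_of_card_ge hS'
  -- the image of `S'` in `G`
  obtain ⟨T, hT⟩ : ∃ T : Subgroup G,
      T = (S' : Subgroup (Subgroup.normalizer (R₀ : Set G))).map
        (Subgroup.normalizer (R₀ : Set G)).subtype := ⟨_, rfl⟩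
  have hTL : T ≤ Subgroup.normalizer (R₀ : Set G) := by
    rw [hT]; exact Subgroup.map_subtype_le _
  have hTcard : Nat.card T = Nat.card (S' : Subgroup (Subgroup.normalizer (R₀ : Set G))) := by
    rw [hT]
    exact Nat.card_congr (Subgroup.equivMapOfInjective _ _
      (Subgroup.subtype_injective _)).toEquiv.symm
  have hTp : IsPGroup p T := by rw [hT]; exact S'.2.map _
  obtain ⟨P'', hP''⟩ := hTp.exists_le_sylow
  obtain ⟨a, ha⟩ := MulAction.exists_smul_eq G P'' P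
  have hconj : ∀ x ∈ T, a * x * a⁻¹ ∈ (P : Subgroup G) := by
    intro x hx
    have h1 := hP'' hx
    rw [← ha, Cfsg.Agent.Lib.Helper54.mem_sylow_smul_iff]
    have e : a⁻¹ * (a * x * a⁻¹) * a = x := by group
    rw [e]; exact h1
  have hR₀T : R₀ ≤ T := by
    intro x hx
    have hxL : x ∈ Subgroup.normalizer (R₀ : Set G) := Subgroup.le_normalizer hx
    have h1 : (⟨x, hxL⟩ : Subgroup.normalizer (R₀ : Set G)) ∈
        (S' : Subgroup (Subgroup.normalizer (R₀ : Set G))) :=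
      hS' (Subgroup.mem_subgroupOf.mpr ⟨hR₀P hx, hxL⟩)
    rw [hT]
    exact ⟨⟨x, hxL⟩, h1, rfl⟩
  -- the competitor `h₁ = h₀ a⁻¹`
  have hh₁ : ∀ u ∈ R, (h₀.1 * a⁻¹)⁻¹ * u * (h₀.1 * a⁻¹) ∈ (P : Subgroup G) := by
    intro u hu
    have h1 : h₀.1⁻¹ * u * h₀.1 ∈ R₀ := by
      rw [hR₀, mem_cj]
      have e : h₀.1 * (h₀.1⁻¹ * u * h₀.1) * h₀.1⁻¹ = u := by group
      rw [e]; exact hu
    have h2 := hconj _ (hR₀T h1)
    have e : (h₀.1 * a⁻¹)⁻¹ * u * (h₀.1 * a⁻¹) = a * (h₀.1⁻¹ * u * h₀.1) * a⁻¹ := by group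
    rw [e]; exact h2
  have hle : cj a⁻¹ T ≤ (P : Subgroup G) ⊓ Subgroup.normalizer (cj (h₀.1 * a⁻¹) R : Set G) := by
    intro x hx
    rw [mem_cj, inv_inv] at hx
    refine Subgroup.mem_inf.mpr ⟨?_, ?_⟩
    · have h1 := hconj _ hx
      have e : a * (a⁻¹ * x * a) * a⁻¹ = x := by group
      rwa [e] at h1
    · rw [mem_normalizer_cj]
      have h1 := hTL hx
      rw [hR₀, mem_normalizer_cj] at h1
      have e : h₀.1 * a⁻¹ * x * (h₀.1 * a⁻¹)⁻¹ = h₀.1 * (a⁻¹ * x * a) * h₀.1⁻¹ := by group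
      rw [e]; exact h1
  have h1 : Nat.card T ≤ Nat.card ↥((P : Subgroup G) ⊓
      Subgroup.normalizer (cj (h₀.1 * a⁻¹) R : Set G)) := by
    rw [← card_cj a⁻¹ T]
    exact Subgroup.card_le_of_le hle
  have h2 := hmax ⟨h₀.1 * a⁻¹, hh₁⟩
  have h3 : Nat.card ↥(((P : Subgroup G) ⊓ Subgroup.normalizer (R₀ : Set G)).subgroupOf
      (Subgroup.normalizer (R₀ : Set G))) =
      Nat.card ↥((P : Subgroup G) ⊓ Subgroup.normalizer (R₀ : Set G)) :=
    Nat.card_congr (Subgroup.subgroupOfEquivOfLe inf_le_right).toEquiv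
  rw [h3, ← hTcard, hR₀]
  exact h1.trans h2

theorem eq_of_pow_eq {A : Type*} [CommGroup A] {p f : ℕ} (hp : p.Prime)
    (hA : ∀ a : A, a ^ p = 1) (hf : ¬ p ∣ f) {a b : A} (h : a ^ f = b ^ f) : a = b := by
  have h1 : (a * b⁻¹) ^ f = 1 := by rw [mul_pow, inv_pow, h, mul_inv_cancel]
  have h2 : orderOf (a * b⁻¹) ∣ f := orderOf_dvd_of_pow_eq_one h1
  have h3 : orderOf (a * b⁻¹) ∣ p := orderOf_dvd_of_pow_eq_one (hA _)
  rcases (Nat.dvd_prime hp).mp h3 with h4 | h4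
  · rw [orderOf_eq_one_iff] at h4
    exact mul_inv_eq_one.mp h4
  · rw [h4] at h2; exact absurd h2 hf

/-- `Λ` restricted to a fully normalized `R₀` is invariant under `N_G(R₀)`, given stability on
larger subgroups. -/
theorem invariant_of_sylow (H : Hyp P Q Λ) (R₀ : Subgroup G) (hR₀P : R₀ ≤ (P : Subgroup G))
    (L : Subgroup G) (hL : L = Subgroup.normalizer (R₀ : Set G)) (S' : Sylow p L)
    (hS' : (S' : Subgroup L) = ((P : Subgroup G) ⊓ L).subgroupOf L)
    (IH : ∀ R' : Subgroup G, R' ≤ (P : Subgroup G) → Nat.card R₀ < Nat.card R' → St P Λ R') :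
    ∀ v ∈ R₀, ∀ ℓ ∈ L, Λ (ℓ⁻¹ * v * ℓ) = Λ v := by
  classical
  have hp : p.Prime := Fact.out
  have hLn : ∀ ℓ ∈ L, ∀ w ∈ R₀, ℓ⁻¹ * w * ℓ ∈ R₀ := by
    intro ℓ hℓ w hw
    rw [hL] at hℓ
    exact conj_mem_of_mem_normalizer hℓ hw
  by_cases hQ : Q ≤ R₀
  · intro v hv ℓ hℓ
    exact H.stab v (hR₀P hv) ℓ
      (H.mem_normalizer (fun q hq => hR₀P (hLn ℓ hℓ q (hQ hq))))
      (hR₀P (hLn ℓ hℓ v hv))
  obtain ⟨z, hzQ, hzN, hzR, hzp⟩ := exists_z H hR₀P hQ
  have hzL : z ∈ L := by rw [hL]; exact hzN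
  have hmemS : ∀ t : L, t ∈ (S' : Subgroup L) ↔ (t : G) ∈ (P : Subgroup G) := by
    intro t
    rw [hS', Subgroup.mem_subgroupOf]
    exact ⟨fun h => h.1, fun h => ⟨h, t.2⟩⟩
  letI : Fintype (L ⧸ (S' : Subgroup L)) := Fintype.ofFinite _
  obtain ⟨σ, hσdef⟩ : ∃ σ : Equiv.Perm (L ⧸ (S' : Subgroup L)),
      σ = MulAction.toPermHom L (L ⧸ (S' : Subgroup L)) (⟨z, hzL⟩ : L) := ⟨_, rfl⟩
  have hσpow : ∀ (j : ℕ) (t : L), (σ ^ j) (QuotientGroup.mk t) =
      (QuotientGroup.mk ((⟨z, hzL⟩ : L) ^ j * t) : L ⧸ (S' : Subgroup L)) := by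
    intro j t
    rw [hσdef, ← map_pow]
    rfl
  have hσ : σ ^ p = 1 := by
    ext c
    obtain ⟨t, rfl⟩ := QuotientGroup.mk_surjective c
    rw [hσpow, Equiv.Perm.one_apply, QuotientGroup.eq, hmemS]
    have e : ((((⟨z, hzL⟩ : L) ^ p * t)⁻¹ * t : L) : G) = (t : G)⁻¹ * (z ^ p)⁻¹ * t := by
      simp only [Subgroup.coe_mul, Subgroup.coe_inv, Subgroup.coe_pow]; group
    rw [e]
    exact hR₀P (hLn t t.2 _ (R₀.inv_mem hzp))
  obtain ⟨F, hF⟩ : ∃ F : G → (L ⧸ (S' : Subgroup L)) → A,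
      ∀ v c, F v c = Λ ((c.out : G)⁻¹ * v * (c.out : G)) :=
    ⟨fun v c => Λ ((c.out : G)⁻¹ * v * (c.out : G)), fun _ _ => rfl⟩
  have hwd : ∀ v ∈ R₀, ∀ t : L,
      F v (QuotientGroup.mk t) = Λ ((t : G)⁻¹ * v * (t : G)) := by
    intro v hv t
    obtain ⟨s, hs⟩ := QuotientGroup.mk_out_eq_mul (S' : Subgroup L) t
    rw [hF, hs]
    have hsP : ((s : L) : G) ∈ (P : Subgroup G) := (hmemS s.1).mp s.2
    have h1 := H.conjP hsP (hR₀P (hLn t t.2 v hv))
    rw [← h1]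
    congr 1
    simp only [Subgroup.coe_mul]; group
  have hre : ∀ v ∈ R₀, ∀ ℓ : L, ∏ c, F ((ℓ : G)⁻¹ * v * ℓ) c = ∏ c, F v c := by
    intro v hv ℓ
    rw [← Equiv.prod_comp (MulAction.toPerm ℓ) (F v)]
    apply Finset.prod_congr rfl
    intro c _
    obtain ⟨t, rfl⟩ := QuotientGroup.mk_surjective c
    have h1 : (MulAction.toPerm ℓ) (QuotientGroup.mk t : L ⧸ (S' : Subgroup L))
        = QuotientGroup.mk (ℓ * t) := rfl
    rw [h1, hwd _ (hLn ℓ ℓ.2 v hv) t, hwd v hv (ℓ * t)]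
    congr 1
    simp only [Subgroup.coe_mul]; group
  have hfix : ∀ v ∈ R₀,
      ∏ c, F v c = Λ v ^ (Finset.univ.filter (fun c => σ c = c)).card := by
    intro v hv
    rw [prod_eq_prod_fixed hp σ hσ (F v), ← Finset.prod_const]
    · apply Finset.prod_congr rfl
      intro c hc
      rw [Finset.mem_filter] at hc
      have hc2 := hc.2
      obtain ⟨t, rfl⟩ := QuotientGroup.mk_surjective c
      rw [hwd v hv t]
      have h1 := hσpow 1 t
      rw [pow_one, pow_one, hc2] at h1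
      rw [QuotientGroup.eq, hmemS] at h1
      have h2 : (t : G)⁻¹ * z * t ∈ (P : Subgroup G) := by
        have e : ((t⁻¹ * ((⟨z, hzL⟩ : L) * t) : L) : G) = (t : G)⁻¹ * z * t := by
          simp only [Subgroup.coe_mul, Subgroup.coe_inv]; group
        rwa [e] at h1
      have hR₁P : R₀ ⊔ Subgroup.zpowers z ≤ (P : Subgroup G) :=
        sup_le hR₀P (by rw [Subgroup.zpowers_le]; exact H.Q_le hzQ)
      have hlt : Nat.card R₀ < Nat.card ↥(R₀ ⊔ Subgroup.zpowers z) := by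
        apply Cfsg.Agent.Lib.Helper54.card_lt_card_of_lt
        refine lt_of_le_of_ne le_sup_left (fun e => hzR ?_)
        rw [e]; exact Subgroup.mem_sup_right (Subgroup.mem_zpowers z)
      have hconj : ∀ w ∈ R₀ ⊔ Subgroup.zpowers z, (t : G)⁻¹ * w * t ∈ (P : Subgroup G) := by
        have h3 : R₀ ⊔ Subgroup.zpowers z ≤ cj (t : G)⁻¹ (P : Subgroup G) := by
          apply sup_le
          · intro w hw
            rw [mem_cj, inv_inv]
            exact hR₀P (hLn t t.2 w hw)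
          · rw [Subgroup.zpowers_le, mem_cj, inv_inv]; exact h2
        intro w hw
        have h4 := h3 hw
        rwa [mem_cj, inv_inv] at h4
      exact IH _ hR₁P hlt (t : G) hconj v (Subgroup.mem_sup_left hv)
    · intro c hc
      obtain ⟨t, rfl⟩ := QuotientGroup.mk_surjective c
      have hμ : ∀ x ∈ R₀, ∀ y ∈ R₀, Λ ((t : G)⁻¹ * (x * y) * t)
          = Λ ((t : G)⁻¹ * x * t) * Λ ((t : G)⁻¹ * y * t) := by
        intro x hx y hy
        rw [← H.mul _ (hR₀P (hLn t t.2 x hx)) _ (hR₀P (hLn t t.2 y hy))]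
        congr 1; group
      have h1 := prod_cz_eq_one hp H.exp R₀ z
        (fun w hw => conj_mem_of_mem_normalizer hzN hw)
        (fun w => Λ ((t : G)⁻¹ * w * t)) hμ v hv (H.comm v (hR₀P hv) z hzQ)
      rw [← h1]
      apply Finset.prod_congr rfl
      intro j _
      rw [hσpow j t, hwd v hv]
      congr 1
      simp only [Subgroup.coe_mul, Subgroup.coe_pow, cz]; group
  have hfcop : ¬ p ∣ (Finset.univ.filter (fun c => σ c = c)).card := by
    intro hdiv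
    have h1 := prod_eq_prod_fixed hp σ hσ (fun _ => Multiplicative.ofAdd (1 : ZMod p)) ?_
    · rw [Finset.prod_const, Finset.prod_const, Finset.card_univ] at h1
      have h2 : ((Fintype.card (L ⧸ (S' : Subgroup L)) : ℕ) : ZMod p)
          = ((Finset.univ.filter (fun c => σ c = c)).card : ZMod p) := by
        have h3 := congrArg Multiplicative.toAdd h1
        simpa using h3
      rw [(ZMod.natCast_eq_zero_iff _ p).mpr hdiv, ZMod.natCast_eq_zero_iff] at h2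
      apply S'.not_dvd_index
      rw [Subgroup.index_eq_card, Nat.card_eq_fintype_card]; exact h2
    · intro x _
      rw [Finset.prod_const, Finset.card_range, ← ofAdd_nsmul, nsmul_eq_mul, mul_one,
        ZMod.natCast_self, ofAdd_zero]
  intro v hv ℓ hℓ
  have e1 := hfix v hv
  have e2 := hfix _ (hLn ℓ hℓ v hv)
  have e3 := hre v hv ⟨ℓ, hℓ⟩
  have e4 : Λ (ℓ⁻¹ * v * ℓ) ^ (Finset.univ.filter (fun c => σ c = c)).card
      = Λ v ^ (Finset.univ.filter (fun c => σ c = c)).card := by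
    rw [← e2, ← e1]; exact e3
  exact eq_of_pow_eq hp H.exp hfcop e4

theorem step (H : Hyp P Q Λ) (R : Subgroup G) (hR : R ≤ (P : Subgroup G))
    (IH : ∀ R' : Subgroup G, R' ≤ (P : Subgroup G) → Nat.card R < Nat.card R' → St P Λ R') :
    St P Λ R := by
  by_cases hQR : Q ≤ R
  · exact St_of_Q_le H hR hQR
  have hRP : R < (P : Subgroup G) := lt_of_le_of_ne hR (fun h => hQR (h ▸ H.Q_le))
  have hRPcard : Nat.card R < Nat.card (P : Subgroup G) :=
    Cfsg.Agent.Lib.Helper54.card_lt_card_of_lt hRP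
  obtain ⟨R₀, h₀, hR₀, hh₀, S', hS'⟩ := exists_fully_normalized P R hR
  have hcjP : ∀ h : G, (∀ u ∈ R, h⁻¹ * u * h ∈ (P : Subgroup G)) →
      cj h R ≤ (P : Subgroup G) := by
    intro h hh x hx
    rw [mem_cj] at hx
    have h1 := hh _ hx
    have e : h⁻¹ * (h * x * h⁻¹) * h = x := by group
    rwa [e] at h1
  have hmemcj : ∀ (h u : G), u ∈ R → h⁻¹ * u * h ∈ cj h R := by
    intro h u hu
    rw [mem_cj]
    have e : h * (h⁻¹ * u * h) * h⁻¹ = u := by group
    rw [e]; exact hu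
  have hR₀P : R₀ ≤ (P : Subgroup G) := by rw [hR₀]; exact hcjP h₀ hh₀
  have hcardR₀ : Nat.card R₀ = Nat.card R := by rw [hR₀, card_cj]
  have hinv : ∀ v ∈ R₀, ∀ ℓ ∈ Subgroup.normalizer (R₀ : Set G), Λ (ℓ⁻¹ * v * ℓ) = Λ v :=
    invariant_of_sylow H R₀ hR₀P _ rfl S' hS'
      (fun R' hR' hlt => IH R' hR' (by rw [← hcardR₀]; exact hlt))
  have htrans : ∀ h : G, (∀ u ∈ R, h⁻¹ * u * h ∈ (P : Subgroup G)) →
      ∃ ℓ ∈ Subgroup.normalizer (R₀ : Set G), ∀ u ∈ R,
        Λ (ℓ * (h₀⁻¹ * u * h₀) * ℓ⁻¹) = Λ (h⁻¹ * u * h) := by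
    intro h hh
    obtain ⟨Rh, hRh⟩ : ∃ Rh : Subgroup G, Rh = cj h R := ⟨_, rfl⟩
    have hRhP : Rh ≤ (P : Subgroup G) := by rw [hRh]; exact hcjP h hh
    have hcardRh : Nat.card Rh = Nat.card R := by rw [hRh, card_cj]
    have hRhlt : Rh < (P : Subgroup G) := by
      refine lt_of_le_of_ne hRhP (fun e => ?_)
      rw [e] at hcardRh
      omega
    obtain ⟨M, hM⟩ : ∃ M : Subgroup G,
        M = (P : Subgroup G) ⊓ Subgroup.normalizer (Rh : Set G) := ⟨_, rfl⟩
    have hRhM : Rh ≤ M := by rw [hM]; exact le_inf hRhP Subgroup.le_normalizer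
    have hMP : M ≤ (P : Subgroup G) := by rw [hM]; exact inf_le_left
    have hMlt : Nat.card R < Nat.card M := by
      obtain ⟨y, hyP, hyN, hyR⟩ :=
        Cfsg.Agent.Lib.Helper54.exists_mem_normalizer_not_mem P.2 hRhlt
      have hyM : y ∈ M := by rw [hM]; exact ⟨hyP, hyN⟩
      have hlt : Rh < M := lt_of_le_of_ne hRhM (fun e => hyR (e ▸ hyM))
      rw [← hcardRh]; exact Cfsg.Agent.Lib.Helper54.card_lt_card_of_lt hlt
    obtain ⟨c, hc⟩ : ∃ c : G, c = h₀⁻¹ * h := ⟨_, rfl⟩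
    have hR₀eq : R₀ = cj c⁻¹ Rh := by
      ext y
      rw [hR₀, hRh, mem_cj, mem_cj, mem_cj, hc]
      have e : h * ((h₀⁻¹ * h)⁻¹ * y * (h₀⁻¹ * h)⁻¹⁻¹) * h⁻¹ = h₀ * y * h₀⁻¹ := by group
      rw [e]
    obtain ⟨U, hU⟩ : ∃ U : Subgroup G, U = cj c⁻¹ M := ⟨_, rfl⟩
    have hUL : U ≤ Subgroup.normalizer (R₀ : Set G) := by
      intro x hx
      rw [hU, mem_cj, hM] at hx
      rw [hR₀eq, mem_normalizer_cj]
      exact hx.2
    have hUp : IsPGroup p (U.subgroupOf (Subgroup.normalizer (R₀ : Set G))) := by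
      have hUp' : IsPGroup p U := by
        obtain ⟨k, hk⟩ := IsPGroup.iff_card.mp (P.2.to_le hMP)
        exact IsPGroup.of_card (n := k) (by rw [hU, card_cj, hk])
      exact hUp'.comap_subtype
    obtain ⟨S'', hS''⟩ := hUp.exists_le_sylow
    obtain ⟨ℓ, hℓ⟩ := MulAction.exists_smul_eq (Subgroup.normalizer (R₀ : Set G)) S'' S'
    have hconj : ∀ x ∈ U, (ℓ : G) * x * (ℓ : G)⁻¹ ∈ (P : Subgroup G) := by
      intro x hx
      have hxL := hUL hx
      have h1 : (⟨x, hxL⟩ : Subgroup.normalizer (R₀ : Set G)) ∈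
          (S'' : Subgroup (Subgroup.normalizer (R₀ : Set G))) :=
        hS'' (Subgroup.mem_subgroupOf.mpr hx)
      have h2 : ℓ * ⟨x, hxL⟩ * ℓ⁻¹ ∈
          ((ℓ • S'' : Sylow p (Subgroup.normalizer (R₀ : Set G))) :
            Subgroup (Subgroup.normalizer (R₀ : Set G))) := by
        rw [Cfsg.Agent.Lib.Helper54.mem_sylow_smul_iff]
        have e : ℓ⁻¹ * (ℓ * ⟨x, hxL⟩ * ℓ⁻¹) * ℓ = (⟨x, hxL⟩ : Subgroup.normalizer (R₀ : Set G)) := by
          group
        rw [e]; exact h1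
      rw [hℓ, hS', Subgroup.mem_subgroupOf] at h2
      exact h2.1
    refine ⟨ℓ, ℓ.2, ?_⟩
    intro u hu
    have hwM : h⁻¹ * u * h ∈ M := by
      apply hRhM
      rw [hRh]; exact hmemcj h u hu
    have hconjM : ∀ w ∈ M, ((ℓ : G) * c)⁻¹⁻¹ * w * ((ℓ : G) * c)⁻¹ ∈ (P : Subgroup G) := by
      intro w hw
      have hx : c * w * c⁻¹ ∈ U := by
        rw [hU, mem_cj]
        have e : c⁻¹ * (c * w * c⁻¹) * c⁻¹⁻¹ = w := by group
        rw [e]; exact hw
      have h3 := hconj _ hx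
      have e : ((ℓ : G) * c)⁻¹⁻¹ * w * ((ℓ : G) * c)⁻¹ = (ℓ : G) * (c * w * c⁻¹) * (ℓ : G)⁻¹ := by
        group
      rw [e]; exact h3
    have hst := IH M hMP hMlt (((ℓ : G) * c)⁻¹) hconjM (h⁻¹ * u * h) hwM
    rw [← hst]
    congr 1
    rw [hc]; group
  intro g hg u hu
  obtain ⟨ℓ₁, hℓ₁, h1⟩ := htrans g hg
  obtain ⟨ℓ₂, hℓ₂, h2⟩ := htrans 1 (fun u hu => by simpa using hR hu)
  have hv : h₀⁻¹ * u * h₀ ∈ R₀ := by rw [hR₀]; exact hmemcj h₀ u hu
  have e1 := h1 u hu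
  have e2 := h2 u hu
  have e3 := hinv _ hv ℓ₁⁻¹ (Subgroup.inv_mem _ hℓ₁)
  have e4 := hinv _ hv ℓ₂⁻¹ (Subgroup.inv_mem _ hℓ₂)
  rw [inv_inv] at e3 e4
  rw [← e1, e3, ← e4, e2]
  simp

/-- **Stability theorem**: under the Hall–Wielandt hypotheses, an `N_G(Q)`-stable multiplicative
map `Λ` on `P` with values in an abelian group of exponent `p` is `G`-stable. -/
theorem St_all (H : Hyp P Q Λ) : ∀ R : Subgroup G, R ≤ (P : Subgroup G) → St P Λ R := by
  have key : ∀ n : ℕ, ∀ R : Subgroup G, R ≤ (P : Subgroup G) →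
      Nat.card (P : Subgroup G) - Nat.card R = n → St P Λ R := by
    intro n
    induction n using Nat.strong_induction_on with
    | _ n ih =>
      intro R hR hn
      have IH : ∀ R' : Subgroup G, R' ≤ (P : Subgroup G) → Nat.card R < Nat.card R' →
          St P Λ R' := by
        intro R' hR' hlt
        have hle : Nat.card R' ≤ Nat.card (P : Subgroup G) := Subgroup.card_le_of_le hR'
        exact ih (Nat.card (P : Subgroup G) - Nat.card R') (by omega) R' hR' rfl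
      exact step H R hR IH
  intro R hR
  exact key _ R hR rfl

theorem stable_elt (H : Hyp P Q Λ) {x g : G} (hx : x ∈ (P : Subgroup G))
    (hxg : g⁻¹ * x * g ∈ (P : Subgroup G)) : Λ (g⁻¹ * x * g) = Λ x := by
  have h1 : Subgroup.zpowers x ≤ (P : Subgroup G) := by rw [Subgroup.zpowers_le]; exact hx
  refine St_all H (Subgroup.zpowers x) h1 g ?_ x (Subgroup.mem_zpowers x)
  have h2 : Subgroup.zpowers x ≤ cj g⁻¹ (P : Subgroup G) := by
    rw [Subgroup.zpowers_le, mem_cj, inv_inv]; exact hxg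
  intro u hu
  have h3 := h2 hu
  rwa [mem_cj, inv_inv] at h3

end Main

section Extension

universe u

variable {G : Type u} [Group G] [Finite G] {p : ℕ} [Fact p.Prime]

/-- Under the Hall–Wielandt hypotheses, homomorphisms from `N_G(Q)` to a group of order `p`
extend to `G`. -/
theorem exists_extension_prime (P : Sylow p G) (Q : Subgroup G)
    (hQ : Cfsg.IsWeaklyClosed Q (P : Subgroup G))
    (h : ∀ u ∈ (P : Subgroup G), ∀ z ∈ Q, (fun y : G => y⁻¹ * z⁻¹ * y * z)^[p - 1] u = 1)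
    (Z : Type*) [Group Z] (hZ : Nat.card Z = p) (ζ : Subgroup.normalizer (Q : Set G) →* Z) :
    ∃ ζ' : G →* Z, ∀ x : Subgroup.normalizer (Q : Set G), ζ' x = ζ x := by
  classical
  have hp : p.Prime := Fact.out
  haveI : Finite Z := Nat.finite_of_card_ne_zero (by rw [hZ]; exact hp.ne_zero)
  haveI : IsCyclic Z := isCyclic_of_prime_card hZ
  letI : CommGroup Z := IsCyclic.commGroup
  have hexp : ∀ a : Z, a ^ p = 1 := fun a => by rw [← hZ]; exact pow_card_eq_one'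
  have hZp : IsPGroup p Z := IsPGroup.of_card (n := 1) (by rw [hZ, pow_one])
  have hPN : (P : Subgroup G) ≤ Subgroup.normalizer (Q : Set G) := le_normalizer_of_wc hQ
  obtain ⟨Λ, hΛ⟩ : ∃ Λ : G → Z, ∀ x, Λ x =
      if hx : x ∈ Subgroup.normalizer (Q : Set G) then ζ ⟨x, hx⟩ else 1 := ⟨_, fun _ => rfl⟩
  have hΛN : ∀ x (hx : x ∈ Subgroup.normalizer (Q : Set G)), Λ x = ζ ⟨x, hx⟩ :=
    fun x hx => by rw [hΛ, dif_pos hx]
  have H : Hyp P Q Λ :=
    { wc := hQ
      comm := h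
      exp := hexp
      mul := fun x hx y hy => by
        rw [hΛN x (hPN hx), hΛN y (hPN hy),
          hΛN (x * y) (Subgroup.mul_mem _ (hPN hx) (hPN hy)), ← map_mul]
        rfl
      stab := fun u hu n hn _ => by
        rw [hΛN u (hPN hu),
          hΛN _ (Subgroup.mul_mem _ (Subgroup.mul_mem _ (Subgroup.inv_mem _ hn) (hPN hu)) hn)]
        have e : (⟨n⁻¹ * u * n, Subgroup.mul_mem _ (Subgroup.mul_mem _ (Subgroup.inv_mem _ hn)
            (hPN hu)) hn⟩ : Subgroup.normalizer (Q : Set G))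
            = (⟨n, hn⟩ : Subgroup.normalizer (Q : Set G))⁻¹ * ⟨u, hPN hu⟩ * ⟨n, hn⟩ := rfl
        rw [e, map_mul, map_mul, map_inv, mul_comm ((ζ ⟨n, hn⟩)⁻¹), inv_mul_cancel_right] }
  obtain ⟨lam, hlam⟩ : ∃ lam : (P : Subgroup G) →* Z, ∀ y : (P : Subgroup G), lam y = Λ (y : G) :=
    ⟨ζ.comp (Subgroup.inclusion hPN), fun y => by rw [hΛN _ (hPN y.2)]; rfl⟩
  have hker : (P : Subgroup G).focalSubgroupOf ≤ lam.ker := by
    rw [Subgroup.focalSubgroupOf_eq_closure, Subgroup.closure_le]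
    rintro g ⟨x, hx, u, hg⟩
    rw [SetLike.mem_coe, MonoidHom.mem_ker, hlam, hg, commutatorElement_def]
    have h1 : u * x⁻¹ * u⁻¹ ∈ (P : Subgroup G) := by
      have e : u * x⁻¹ * u⁻¹ = x⁻¹ * (x * u * x⁻¹ * u⁻¹) := by group
      rw [e, ← commutatorElement_def, ← hg]
      exact Subgroup.mul_mem _ (Subgroup.inv_mem _ hx) g.2
    have h2 : Λ (u * x⁻¹ * u⁻¹) = Λ x⁻¹ := by
      have h3 := stable_elt H (x := x⁻¹) (g := u⁻¹) (Subgroup.inv_mem _ hx)
        (by rw [inv_inv]; exact h1)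
      rwa [inv_inv] at h3
    have e : x * u * x⁻¹ * u⁻¹ = x * (u * x⁻¹ * u⁻¹) := by group
    rw [e, H.mul x hx _ h1, h2, H.inv hx, mul_inv_cancel]
  obtain ⟨τ, hτ⟩ : ∃ τ : G →* Z, ∀ x : (P : Subgroup G),
      τ x = lam x ^ (P : Subgroup G).index := by
    refine ⟨(QuotientGroup.lift (P : Subgroup G).focalSubgroupOf lam hker).comp
      (P : Subgroup G).transferFocal, fun x => ?_⟩
    rw [MonoidHom.comp_apply, Subgroup.transferFocal_eq_pow, map_pow]
    rfl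
  have hcop : Nat.Coprime (P : Subgroup G).index p :=
    ((Nat.Prime.coprime_iff_not_dvd hp).mpr P.not_dvd_index).symm
  obtain ⟨e, he⟩ := Nat.exists_mul_mod_eq_one_of_coprime hcop hp.one_lt
  obtain ⟨ζ', hζ'⟩ : ∃ ζ' : G →* Z, ∀ g, ζ' g = τ g ^ e :=
    ⟨(powMonoidHom e).comp τ, fun g => rfl⟩
  have hζ'P : ∀ x : (P : Subgroup G), ζ' x = lam x := by
    intro x
    rw [hζ', hτ, ← pow_mul]
    have e1 : (P : Subgroup G).index * e = p * ((P : Subgroup G).index * e / p) + 1 := by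
      have := Nat.div_add_mod ((P : Subgroup G).index * e) p
      omega
    rw [e1, pow_succ, pow_mul, hexp, one_pow, one_mul]
  refine ⟨ζ', ?_⟩
  -- agreement on the normalizer
  haveI := Cfsg.Agent.Lib.Helper2.pResidual_normal (G := Subgroup.normalizer (Q : Set G)) p
  have htop := Cfsg.Agent.Lib.Helper2.sylow_sup_eq_top (P.subtype hPN)
    (Cfsg.pResidual p (Subgroup.normalizer (Q : Set G))) le_rfl
  have hle : (⊤ : Subgroup (Subgroup.normalizer (Q : Set G))) ≤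
      MonoidHom.eqLocus (ζ'.comp (Subgroup.normalizer (Q : Set G)).subtype) ζ := by
    rw [← htop]
    apply sup_le
    · intro y hy
      rw [Sylow.coe_subtype, Subgroup.mem_subgroupOf] at hy
      show ζ' (y : G) = ζ y
      have h1 := hζ'P ⟨(y : G), hy⟩
      rw [hlam, hΛN _ y.2] at h1
      exact h1
    · intro y hy
      have h1 := Cfsg.Agent.Lib.Helper2.pResidual_le_ker p
        (ζ'.comp (Subgroup.normalizer (Q : Set G)).subtype) hZp hy
      have h2 := Cfsg.Agent.Lib.Helper2.pResidual_le_ker p ζ hZp hy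
      rw [MonoidHom.mem_ker] at h1 h2
      show (ζ'.comp (Subgroup.normalizer (Q : Set G)).subtype) y = ζ y
      rw [h1, h2]
  intro x
  exact hle (Subgroup.mem_top x)

/-- Tate-type extension theorem: if every homomorphism from `N` (of index prime to `p`) to a
group of order `p` extends to `G`, then so does every homomorphism to a finite `p`-group. -/
theorem exists_extension (N : Subgroup G) (hidx : ¬ p ∣ N.index)
    (hE : ∀ (Z : Type u) [Group Z], Nat.card Z = p → ∀ ζ : N →* Z,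
      ∃ ζ' : G →* Z, ∀ x : N, ζ' x = ζ x) :
    ∀ (n : ℕ) (T : Type u) [Group T] [Finite T], IsPGroup p T → Nat.card T = n →
      ∀ φ : N →* T, ∃ ψ : G →* T, ∀ x : N, ψ x = φ x := by
  intro n
  induction n using Nat.strong_induction_on with
  | _ n ih =>
    intro T _ _ hT hn φ
    have hp : p.Prime := Fact.out
    by_cases htriv : Nat.card T = 1
    · haveI : Subsingleton T := (Nat.card_eq_one_iff_unique.mp htriv).1
      exact ⟨1, fun x => Subsingleton.elim _ _⟩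
    haveI : Nontrivial T := by
      rw [← Finite.one_lt_card_iff_nontrivial]
      have := Nat.card_pos (α := T); omega
    haveI := hT.center_nontrivial
    have hcp : p ∣ Nat.card (Subgroup.center T) := by
      obtain ⟨k, hk⟩ := IsPGroup.iff_card.mp (hT.to_subgroup (Subgroup.center T))
      have h1 : 1 < Nat.card (Subgroup.center T) := Finite.one_lt_card
      rw [hk] at h1 ⊢
      rcases Nat.eq_zero_or_pos k with h0 | h0
      · rw [h0, pow_zero] at h1; omega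
      · exact dvd_pow_self p h0.ne'
    obtain ⟨z₀, hz₀⟩ := exists_prime_orderOf_dvd_card' (G := Subgroup.center T) p hcp
    obtain ⟨Z₀, hZ₀⟩ : ∃ Z₀ : Subgroup T, Z₀ = Subgroup.zpowers (z₀ : T) := ⟨_, rfl⟩
    have hZ₀c : Z₀ ≤ Subgroup.center T := by rw [hZ₀, Subgroup.zpowers_le]; exact z₀.2
    have hZ₀card : Nat.card Z₀ = p := by
      rw [hZ₀, Nat.card_zpowers, Subgroup.orderOf_coe, hz₀]
    haveI hZ₀n : Z₀.Normal := ⟨fun x hx g => by
      have e : g * x * g⁻¹ = x := by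
        have h1 := Subgroup.mem_center_iff.mp (hZ₀c hx) g
        rw [h1, mul_inv_cancel_right]
      rw [e]; exact hx⟩
    have hTq : IsPGroup p (T ⧸ Z₀) := hT.to_quotient Z₀
    have hcardq : Nat.card (T ⧸ Z₀) < n := by
      have h1 := Subgroup.card_eq_card_quotient_mul_card_subgroup Z₀
      rw [hZ₀card, hn] at h1
      have hpos : 0 < Nat.card (T ⧸ Z₀) := Nat.card_pos
      have h2 := hp.one_lt
      nlinarith
    obtain ⟨ψbar, hψbar⟩ := ih _ hcardq (T ⧸ Z₀) hTq rfl ((QuotientGroup.mk' Z₀).comp φ)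
    obtain ⟨ψ', hψ'⟩ := Cfsg.Agent.Lib.Helper55.exists_lift_of_central_ker hT N hidx
      (QuotientGroup.mk' Z₀) (QuotientGroup.mk'_surjective Z₀)
      (by rw [QuotientGroup.ker_mk']; exact hZ₀c) ψbar φ (fun u => (hψbar u).symm)
    have hmem : ∀ x : N, (ψ' x)⁻¹ * φ x ∈ Z₀ := by
      intro x
      rw [← QuotientGroup.eq_one_iff, QuotientGroup.mk_mul, QuotientGroup.mk_inv]
      have h1 : ((ψ' x : T) : T ⧸ Z₀) = ψbar x := hψ' x
      have h2 : ((φ x : T) : T ⧸ Z₀) = ψbar x := (hψbar x).symm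
      rw [h1, h2, inv_mul_cancel]
    obtain ⟨ζ, hζ⟩ : ∃ ζ : N →* Z₀, ∀ x : N, (ζ x : T) = (ψ' x)⁻¹ * φ x := by
      refine ⟨MonoidHom.mk' (fun x => ⟨(ψ' x)⁻¹ * φ x, hmem x⟩) ?_, fun x => rfl⟩
      intro a b
      apply Subtype.ext
      show (ψ' (a * b : N))⁻¹ * φ (a * b) = ((ψ' a)⁻¹ * φ a) * ((ψ' b)⁻¹ * φ b)
      have hc := Subgroup.mem_center_iff.mp (hZ₀c (hmem a)) ((ψ' b)⁻¹)
      rw [Subgroup.coe_mul, map_mul, map_mul, mul_inv_rev]
      calc (ψ' b)⁻¹ * (ψ' a)⁻¹ * (φ a * φ b)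
          = ((ψ' b)⁻¹ * ((ψ' a)⁻¹ * φ a)) * φ b := by group
        _ = (((ψ' a)⁻¹ * φ a) * (ψ' b)⁻¹) * φ b := by rw [hc]
        _ = _ := by group
    obtain ⟨ζ', hζ'⟩ := hE Z₀ hZ₀card ζ
    refine ⟨MonoidHom.mk' (fun g => ψ' g * (ζ' g : T)) ?_, ?_⟩
    · intro a b
      show ψ' (a * b) * (ζ' (a * b) : T) = (ψ' a * (ζ' a : T)) * (ψ' b * (ζ' b : T))
      have hc := Subgroup.mem_center_iff.mp (hZ₀c (ζ' a).2) (ψ' b)
      rw [map_mul, map_mul, Subgroup.coe_mul]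
      calc ψ' a * ψ' b * ((ζ' a : T) * (ζ' b : T))
          = ψ' a * (ψ' b * (ζ' a : T)) * (ζ' b : T) := by group
        _ = ψ' a * ((ζ' a : T) * ψ' b) * (ζ' b : T) := by rw [hc]
        _ = _ := by group
    · intro x
      show ψ' x * (ζ' x : T) = φ x
      rw [hζ' x, hζ x]; group

/-- If homomorphisms from `N` to groups of order `p` extend to `G` and `N` has index prime to
`p`, then `O^p(N) = O^p(G) ∩ N`. -/
theorem residual_eq_of_extension (N : Subgroup G) (hidx : ¬ p ∣ N.index)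
    (hE : ∀ (Z : Type u) [Group Z], Nat.card Z = p → ∀ ζ : N →* Z,
      ∃ ζ' : G →* Z, ∀ x : N, ζ' x = ζ x) :
    (Cfsg.pResidual p N).map N.subtype = Cfsg.pResidual p G ⊓ N := by
  apply le_antisymm
  · apply le_inf
    · unfold Cfsg.pResidual
      rw [MonoidHom.map_closure, Subgroup.closure_le]
      rintro _ ⟨x, hx, rfl⟩
      apply Subgroup.subset_closure
      show Nat.Coprime (orderOf (x : G)) p
      rw [Subgroup.orderOf_coe]; exact hx
    · exact Subgroup.map_subtype_le _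
  · intro x hx
    obtain ⟨hx1, hx2⟩ := Subgroup.mem_inf.mp hx
    haveI := Cfsg.Agent.Lib.Helper2.pResidual_normal (G := N) p
    have hT : IsPGroup p (N ⧸ Cfsg.pResidual p N) :=
      Cfsg.Agent.Lib.Helper2.isPGroup_quotient_of_pResidual_le p _ le_rfl
    obtain ⟨ψ, hψ⟩ := exists_extension N hidx hE _ (N ⧸ Cfsg.pResidual p N) hT rfl
      (QuotientGroup.mk' (Cfsg.pResidual p N))
    have h1 : x ∈ ψ.ker := Cfsg.Agent.Lib.Helper2.pResidual_le_ker p ψ hT hx1
    have h2 := hψ ⟨x, hx2⟩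
    rw [MonoidHom.mem_ker] at h1
    have h3 : (QuotientGroup.mk' (Cfsg.pResidual p N)) ⟨x, hx2⟩ = 1 := by rw [← h2]; exact h1
    have h4 : (⟨x, hx2⟩ : N) ∈ Cfsg.pResidual p N := (QuotientGroup.eq_one_iff _).mp h3
    exact ⟨⟨x, hx2⟩, h4, rfl⟩

/-- **Hall–Wielandt**. -/
theorem hall_wielandt (P : Sylow p G) (Q : Subgroup G)
    (hQ : Cfsg.IsWeaklyClosed Q (P : Subgroup G))
    (h : ∀ u ∈ (P : Subgroup G), ∀ z ∈ Q, (fun y : G => y⁻¹ * z⁻¹ * y * z)^[p - 1] u = 1) :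
    (Cfsg.pResidual p (Subgroup.normalizer (Q : Set G))).map
        (Subgroup.normalizer (Q : Set G)).subtype
      = Cfsg.pResidual p G ⊓ Subgroup.normalizer (Q : Set G) := by
  have hPN : (P : Subgroup G) ≤ Subgroup.normalizer (Q : Set G) := le_normalizer_of_wc hQ
  have hidx : ¬ p ∣ (Subgroup.normalizer (Q : Set G)).index :=
    fun hd => P.not_dvd_index (hd.trans (Subgroup.index_dvd_of_le hPN))
  exact residual_eq_of_extension _ hidx
    (fun Z _ hZ ζ => exists_extension_prime P Q hQ h Z hZ ζ)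

end Extension

end Cfsg.Agent.Lib.Helper70.HW
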