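import Mathlib

set_option autoImplicit false
set_option linter.unusedSimpArgs false

namespace Cfsg.Agent.Lib.Helper70.S4407Core

variable {M : Type*} [AddCommGroup M] [Module (ZMod 2) M]

theorem char2_add_self (m : M) : m + m = 0 := by
  rw [← two_smul (ZMod 2) m]
  have : (2 : ZMod 2) = 0 := by decide
  rw [this, zero_smul]

theorem char2_eq (x y : M) (e : x + y = 0) : y = x := by
  have h := char2_add_self x
  calc y = (x + y) + x - (x + x) := by abel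
    _ = x := by rw [e, h]; simp

/-- Relations of the operators `α, β, R, σ` coming from `3^2 : D_8`, together with irreducibility. -/
structure Sys (α β R σ : M →ₗ[ZMod 2] M) : Prop where
  hα3 : ∀ m, α (α (α m)) = m
  hβ3 : ∀ m, β (β (β m)) = m
  hαβ : ∀ m, β (α m) = α (β m)
  hRα : ∀ m, R (α m) = β (R m)
  hRβ : ∀ m, R (β m) = α (α (R m))
  hσα : ∀ m, σ (α m) = α (σ m)
  hσβ : ∀ m, σ (β m) = β (β (σ m))
  hσ2 : ∀ m, σ (σ m) = m
  hR4 : ∀ m, R (R (R (R m))) = m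
  hσR : ∀ m, σ (R m) = R (R (R (σ m)))
  hirr : ∀ N : Submodule (ZMod 2) M, (∀ m ∈ N, α m ∈ N) → (∀ m ∈ N, β m ∈ N) →
    (∀ m ∈ N, R m ∈ N) → (∀ m ∈ N, σ m ∈ N) → N = ⊥ ∨ N = ⊤

namespace Sys

variable {α β R σ : M →ₗ[ZMod 2] M}

theorem hαR (h : Sys α β R σ) (m : M) : α (R m) = R (β (β m)) := by
  rw [h.hRβ, h.hRβ, h.hα3]

theorem hβR (h : Sys α β R σ) (m : M) : β (R m) = R (α m) := (h.hRα m).symm

theorem hβσ (h : Sys α β R σ) (m : M) : β (σ m) = σ (β (β m)) := by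
  rw [h.hσβ, h.hσβ, h.hβ3]

theorem hRRσ (h : Sys α β R σ) (m : M) : R (R (σ m)) = σ (R (R m)) := by
  rw [h.hσR, h.hσR, h.hR4]

theorem hτα (h : Sys α β R σ) (m : M) : σ (R (R (α m))) = α (α (σ (R (R m)))) := by
  rw [h.hRα, h.hRβ, h.hσα, h.hσα]

theorem hτβ (h : Sys α β R σ) (m : M) : σ (R (R (β m))) = β (σ (R (R m))) := by
  rw [h.hRβ, h.hRα, h.hRα, h.hσβ, h.hσβ, h.hβ3]

theorem hατ (h : Sys α β R σ) (m : M) : α (σ (R (R m))) = σ (R (R (α (α m)))) := by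
  rw [h.hτα, h.hτα, h.hα3]

theorem hττ (h : Sys α β R σ) (m : M) : σ (R (R (σ (R (R m))))) = m := by
  rw [h.hRRσ, h.hσ2, h.hR4]

theorem hRinj (h : Sys α β R σ) (m : M) (hm : R m = 0) : m = 0 := by
  have := h.hR4 m
  rw [hm] at this
  simpa using this.symm

/-- No nonzero vector is fixed by both `α` and `β`. -/
theorem hA0 (h : Sys α β R σ) (hα1 : ∃ m, α m ≠ m) : ∀ m, α m = m → β m = m → m = 0 := by
  let N : Submodule (ZMod 2) M := LinearMap.eqLocus α LinearMap.id ⊓ LinearMap.eqLocus β LinearMap.id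
  have hN : ∀ m, m ∈ N ↔ α m = m ∧ β m = m := by
    intro m
    simp [N, LinearMap.mem_eqLocus]
  have h1 : ∀ m ∈ N, α m ∈ N := by
    intro m hm
    obtain ⟨e1, e2⟩ := (hN m).1 hm
    exact (hN _).2 ⟨congrArg α e1, (h.hαβ m).trans (congrArg α e2)⟩
  have h2 : ∀ m ∈ N, β m ∈ N := by
    intro m hm
    obtain ⟨e1, e2⟩ := (hN m).1 hm
    exact (hN _).2 ⟨(h.hαβ m).symm.trans (congrArg β e1), congrArg β e2⟩
  have h3 : ∀ m ∈ N, R m ∈ N := by
    intro m hm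
    obtain ⟨e1, e2⟩ := (hN m).1 hm
    refine (hN _).2 ⟨?_, ?_⟩
    · rw [h.hαR, e2, e2]
    · rw [h.hβR, e1]
  have h4 : ∀ m ∈ N, σ m ∈ N := by
    intro m hm
    obtain ⟨e1, e2⟩ := (hN m).1 hm
    refine (hN _).2 ⟨?_, ?_⟩
    · rw [← h.hσα, e1]
    · rw [h.hβσ, e2, e2]
  rcases h.hirr N h1 h2 h3 h4 with h0 | h0
  · intro m e1 e2
    have : m ∈ N := (hN m).2 ⟨e1, e2⟩
    rw [h0] at this
    exact (Submodule.mem_bot _).1 this
  · exfalso
    obtain ⟨m, hm⟩ := hα1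
    have : m ∈ N := h0 ▸ Submodule.mem_top
    exact hm ((hN m).1 this).1

theorem eA_zero (h : Sys α β R σ) (hA0 : ∀ m, α m = m → β m = m → m = 0) (m : M) :
    m + α m + α (α m) + β m + α (β m) + α (α (β m)) + β (β m) + α (β (β m))
      + α (α (β (β m))) = 0 := by
  apply hA0
  · simp only [map_add, h.hα3, h.hαβ]
    abel
  · simp only [map_add, h.hβ3, h.hαβ]
    abel

/-- Either `M = C(α) + C(β)` or `M = C(αβ) + C(α²β)`. -/
theorem dich (h : Sys α β R σ) (hA0 : ∀ m, α m = m → β m = m → m = 0) :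
    (∀ m, ∃ m₁ m₂, α m₁ = m₁ ∧ β m₂ = m₂ ∧ m = m₁ + m₂) ∨
    (∀ m, ∃ m₁ m₂, α (β m₁) = m₁ ∧ α (α (β m₂)) = m₂ ∧ m = m₁ + m₂) := by
  let Ca : Submodule (ZMod 2) M := LinearMap.eqLocus α LinearMap.id
  let Cb : Submodule (ZMod 2) M := LinearMap.eqLocus β LinearMap.id
  have hCa : ∀ m, m ∈ Ca ↔ α m = m := fun m => by simp [Ca, LinearMap.mem_eqLocus]
  have hCb : ∀ m, m ∈ Cb ↔ β m = m := fun m => by simp [Cb, LinearMap.mem_eqLocus]
  have hinv : ∀ T : M →ₗ[ZMod 2] M, (∀ m, α m = m → T m ∈ Ca ⊔ Cb) →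
      (∀ m, β m = m → T m ∈ Ca ⊔ Cb) → ∀ m ∈ Ca ⊔ Cb, T m ∈ Ca ⊔ Cb := by
    intro T h1 h2 m hm
    obtain ⟨x, hx, y, hy, rfl⟩ := Submodule.mem_sup.1 hm
    rw [map_add]
    exact add_mem (h1 x ((hCa x).1 hx)) (h2 y ((hCb y).1 hy))
  have i1 : ∀ m ∈ Ca ⊔ Cb, α m ∈ Ca ⊔ Cb := by
    apply hinv
    · intro m hm
      exact Submodule.mem_sup_left ((hCa _).2 (congrArg α hm))
    · intro m hm
      exact Submodule.mem_sup_right ((hCb _).2 ((h.hαβ m).trans (congrArg α hm)))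
  have i2 : ∀ m ∈ Ca ⊔ Cb, β m ∈ Ca ⊔ Cb := by
    apply hinv
    · intro m hm
      exact Submodule.mem_sup_left ((hCa _).2 ((h.hαβ m).symm.trans (congrArg β hm)))
    · intro m hm
      exact Submodule.mem_sup_right ((hCb _).2 (congrArg β hm))
  have i3 : ∀ m ∈ Ca ⊔ Cb, R m ∈ Ca ⊔ Cb := by
    apply hinv
    · intro m hm
      exact Submodule.mem_sup_right ((hCb _).2 ((h.hβR m).trans (congrArg R hm)))
    · intro m hm
      refine Submodule.mem_sup_left ((hCa _).2 ?_)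
      rw [h.hαR, hm, hm]
  have i4 : ∀ m ∈ Ca ⊔ Cb, σ m ∈ Ca ⊔ Cb := by
    apply hinv
    · intro m hm
      exact Submodule.mem_sup_left ((hCa _).2 ((h.hσα m).symm.trans (congrArg σ hm)))
    · intro m hm
      refine Submodule.mem_sup_right ((hCb _).2 ?_)
      rw [h.hβσ, hm, hm]
  rcases h.hirr (Ca ⊔ Cb) i1 i2 i3 i4 with h0 | h0
  · right
    have ha0 : ∀ m, α m = m → m = 0 := by
      intro m hm
      have : m ∈ Ca ⊔ Cb := Submodule.mem_sup_left ((hCa m).2 hm)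
      rw [h0] at this
      exact (Submodule.mem_bot _).1 this
    have hb0 : ∀ m, β m = m → m = 0 := by
      intro m hm
      have : m ∈ Ca ⊔ Cb := Submodule.mem_sup_right ((hCb m).2 hm)
      rw [h0] at this
      exact (Submodule.mem_bot _).1 this
    intro m
    have e1 : m + α m + α (α m) = 0 := by
      apply ha0
      simp only [map_add, h.hα3]
      abel
    have e2 : m + β m + β (β m) = 0 := by
      apply hb0
      simp only [map_add, h.hβ3]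
      abel
    have e := h.eA_zero hA0 m
    have t := char2_add_self m
    refine ⟨m + α (β m) + α (α (β (β m))), m + α (β (β m)) + α (α (β m)), ?_, ?_, ?_⟩
    · simp only [map_add, h.hα3, h.hβ3, h.hαβ]
      abel
    · simp only [map_add, h.hα3, h.hβ3, h.hαβ]
      abel
    · have key : (m + α (β m) + α (α (β (β m)))) + (m + α (β (β m)) + α (α (β m))) - m
          = (m + α m + α (α m) + β m + α (β m) + α (α (β m)) + β (β m) + α (β (β m))
            + α (α (β (β m)))) - (m + α m + α (α m)) - (m + β m + β (β m)) + (m + m) := by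
        abel
      rw [e, e1, e2, t] at key
      have key' := sub_eq_zero.1 (by simpa using key)
      exact key'.symm
  · left
    intro m
    have hm : m ∈ Ca ⊔ Cb := h0 ▸ Submodule.mem_top
    obtain ⟨x, hx, y, hy, rfl⟩ := Submodule.mem_sup.1 hm
    exact ⟨x, y, (hCa x).1 hx, (hCb y).1 hy, rfl⟩

/-- Key invariance lemma. -/
theorem K_lemma (h : Sys α β R σ) (hA0 : ∀ m, α m = m → β m = m → m = 0)
    (N₁ : Submodule (ZMod 2) M) (h1 : ∀ n ∈ N₁, α n = n) (h2 : ∀ n ∈ N₁, β n ∈ N₁)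
    (h3 : ∀ n ∈ N₁, σ n ∈ N₁) (h4 : ∀ n ∈ N₁, σ (R (R n)) = n) (hne : N₁ ≠ ⊥) :
    (∀ m, ∃ x ∈ N₁, ∃ y ∈ N₁, m = x + R y) ∧ (∀ m, α m = m → m ∈ N₁) := by
  have hinv : ∀ T : M →ₗ[ZMod 2] M, (∀ n ∈ N₁, T n ∈ N₁ ⊔ N₁.map R) →
      (∀ n ∈ N₁, T (R n) ∈ N₁ ⊔ N₁.map R) → ∀ m ∈ N₁ ⊔ N₁.map R, T m ∈ N₁ ⊔ N₁.map R := by
    intro T t1 t2 m hm
    obtain ⟨x, hx, y, hy, rfl⟩ := Submodule.mem_sup.1 hm
    obtain ⟨y', hy', rfl⟩ := Submodule.mem_map.1 hy
    rw [map_add]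
    exact add_mem (t1 x hx) (t2 y' hy')
  have hRR : ∀ n ∈ N₁, R (R n) = σ n := by
    intro n hn
    have := congrArg σ (h4 n hn)
    rwa [h.hσ2] at this
  have i1 : ∀ m ∈ N₁ ⊔ N₁.map R, α m ∈ N₁ ⊔ N₁.map R := by
    apply hinv
    · intro n hn
      rw [h1 n hn]
      exact Submodule.mem_sup_left hn
    · intro n hn
      rw [h.hαR]
      exact Submodule.mem_sup_right (Submodule.mem_map_of_mem (h2 _ (h2 n hn)))
  have i2 : ∀ m ∈ N₁ ⊔ N₁.map R, β m ∈ N₁ ⊔ N₁.map R := by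
    apply hinv
    · intro n hn
      exact Submodule.mem_sup_left (h2 n hn)
    · intro n hn
      rw [h.hβR, h1 n hn]
      exact Submodule.mem_sup_right (Submodule.mem_map_of_mem hn)
  have i3 : ∀ m ∈ N₁ ⊔ N₁.map R, R m ∈ N₁ ⊔ N₁.map R := by
    apply hinv
    · intro n hn
      exact Submodule.mem_sup_right (Submodule.mem_map_of_mem hn)
    · intro n hn
      rw [hRR n hn]
      exact Submodule.mem_sup_left (h3 n hn)
  have i4 : ∀ m ∈ N₁ ⊔ N₁.map R, σ m ∈ N₁ ⊔ N₁.map R := by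
    apply hinv
    · intro n hn
      exact Submodule.mem_sup_left (h3 n hn)
    · intro n hn
      rw [h.hσR, h.hRRσ, h4 n hn]
      exact Submodule.mem_sup_right (Submodule.mem_map_of_mem hn)
  have htop : N₁ ⊔ N₁.map R = ⊤ := by
    rcases h.hirr (N₁ ⊔ N₁.map R) i1 i2 i3 i4 with h0 | h0
    · exact absurd (le_bot_iff.1 (h0 ▸ le_sup_left)) hne
    · exact h0
  have hdec : ∀ m, ∃ x ∈ N₁, ∃ y ∈ N₁, m = x + R y := by
    intro m
    have hm : m ∈ N₁ ⊔ N₁.map R := htop ▸ Submodule.mem_top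
    obtain ⟨x, hx, y, hy, rfl⟩ := Submodule.mem_sup.1 hm
    obtain ⟨y', hy', rfl⟩ := Submodule.mem_map.1 hy
    exact ⟨x, hx, y', hy', rfl⟩
  refine ⟨hdec, ?_⟩
  intro m hm
  obtain ⟨x, hx, y, hy, rfl⟩ := hdec m
  have hRy : R y = 0 := by
    apply hA0
    · have e1 : α (x + R y) = x + R y := hm
      rw [map_add, h1 x hx] at e1
      exact add_left_cancel e1
    · rw [h.hβR, h1 y hy]
  rw [hRy, add_zero]
  exact hx

theorem zmod2_cases : ∀ c : ZMod 2, c = 0 ∨ c = 1 := by decide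

/-- The case `M = C(α) + C(β)`. -/
theorem core [Finite M] [Nontrivial M] (h : Sys α β R σ)
    (hA0 : ∀ m, α m = m → β m = m → m = 0)
    (hdec : ∀ m, ∃ m₁ m₂, α m₁ = m₁ ∧ β m₂ = m₂ ∧ m = m₁ + m₂) :
    Nat.card M = 16 ∧ Nat.card {m : M // σ m = m ∧ R (R m) = m} = 4 ∧
      Nat.card {m : M // R (σ m) = m ∧ R (R m) = m} = 2 := by
  classical
  have hF2 : ∀ m, α m = m → β (β m) = m + β m := by
    intro m hm
    have e : m + β m + β (β m) = 0 := by
      apply hA0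
      · simp only [map_add, ← h.hαβ, hm]
      · simp only [map_add, h.hβ3]
        abel
    have t := char2_add_self (m + β m)
    calc β (β m) = (m + β m + β (β m)) + (m + β m) - ((m + β m) + (m + β m)) := by abel
      _ = m + β m := by rw [e, t]; simp
  have hex : ∃ m₀, m₀ ≠ 0 ∧ α m₀ = m₀ := by
    obtain ⟨m, hm⟩ := exists_ne (0 : M)
    obtain ⟨m₁, m₂, e1, e2, rfl⟩ := hdec m
    by_cases hm1 : m₁ = 0
    · refine ⟨R m₂, ?_, ?_⟩
      · intro hR
        apply hm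
        rw [hm1, h.hRinj m₂ hR, add_zero]
      · rw [h.hαR, e2, e2]
    · exact ⟨m₁, hm1, e1⟩
  -- Step 1: `τ = σ R R` is trivial on `C(α)`.
  have hτ : ∀ m, α m = m → σ (R (R m)) = m := by
    let N₁ : Submodule (ZMod 2) M :=
      LinearMap.eqLocus α LinearMap.id ⊓ LinearMap.eqLocus (σ ∘ₗ R ∘ₗ R) LinearMap.id
    have hN₁ : ∀ m, m ∈ N₁ ↔ α m = m ∧ σ (R (R m)) = m := by
      intro m
      simp [N₁, LinearMap.mem_eqLocus]
    have hne : N₁ ≠ ⊥ := by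
      obtain ⟨m₀, hm0, hm0α⟩ := hex
      intro hb
      by_cases ht : σ (R (R m₀)) = m₀
      · have : m₀ ∈ N₁ := (hN₁ m₀).2 ⟨hm0α, ht⟩
        rw [hb] at this
        exact hm0 ((Submodule.mem_bot _).1 this)
      · have : m₀ + σ (R (R m₀)) ∈ N₁ := by
          rw [hN₁]
          constructor
          · rw [map_add, hm0α, h.hατ, hm0α, hm0α]
          · simp only [map_add, h.hττ]
            abel
        rw [hb] at this
        exact ht (char2_eq _ _ ((Submodule.mem_bot _).1 this))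
    have h1N : ∀ n ∈ N₁, α n = n := fun n hn => ((hN₁ n).1 hn).1
    have h2N : ∀ n ∈ N₁, β n ∈ N₁ := by
      intro n hn
      obtain ⟨e1, e2⟩ := (hN₁ n).1 hn
      rw [hN₁]
      constructor
      · rw [← h.hαβ, e1]
      · rw [h.hτβ, e2]
    have h3N : ∀ n ∈ N₁, σ n ∈ N₁ := by
      intro n hn
      obtain ⟨e1, e2⟩ := (hN₁ n).1 hn
      rw [hN₁]
      constructor
      · rw [← h.hσα, e1]
      · rw [h.hRRσ, e2]
    have h4N : ∀ n ∈ N₁, σ (R (R n)) = n := fun n hn => ((hN₁ n).1 hn).2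
    obtain ⟨-, hK⟩ := h.K_lemma hA0 N₁ h1N h2N h3N h4N hne
    intro m hm
    exact ((hN₁ m).1 (hK m hm)).2
  -- Step 2: the vector `u`.
  obtain ⟨u, hu0, huα, huσ⟩ : ∃ u, u ≠ 0 ∧ α u = u ∧ σ u = u := by
    obtain ⟨m₀, hm0, hm0α⟩ := hex
    by_cases hs : σ m₀ = m₀
    · exact ⟨m₀, hm0, hm0α, hs⟩
    · refine ⟨m₀ + σ m₀, ?_, ?_, ?_⟩
      · intro e
        exact hs (char2_eq _ _ e)
      · rw [map_add, ← h.hσα, hm0α]
      · rw [map_add, h.hσ2, add_comm]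
  have hββu : β (β u) = u + β u := hF2 u huα
  have hαβu : α (β u) = β u := by rw [← h.hαβ, huα]
  have hσβu : σ (β u) = u + β u := by rw [h.hσβ, huσ, hββu]
  let W₁ : Submodule (ZMod 2) M := Submodule.span (ZMod 2) {u, β u}
  have hW : ∀ w, w ∈ W₁ ↔ ∃ c d : ZMod 2, c • u + d • β u = w :=
    fun w => Submodule.mem_span_pair
  have h1W : ∀ n ∈ W₁, α n = n := by
    intro n hn
    obtain ⟨c, d, rfl⟩ := (hW n).1 hn
    simp only [map_add, map_smul, huα, hαβu]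
  have h2W : ∀ n ∈ W₁, β n ∈ W₁ := by
    intro n hn
    obtain ⟨c, d, rfl⟩ := (hW n).1 hn
    rw [hW]
    refine ⟨d, c + d, ?_⟩
    simp only [map_add, map_smul, hββu, smul_add, add_smul]
    abel
  have h3W : ∀ n ∈ W₁, σ n ∈ W₁ := by
    intro n hn
    obtain ⟨c, d, rfl⟩ := (hW n).1 hn
    rw [hW]
    refine ⟨c + d, d, ?_⟩
    simp only [map_add, map_smul, huσ, hσβu, smul_add, add_smul]
    abel
  have h4W : ∀ n ∈ W₁, σ (R (R n)) = n := fun n hn => hτ n (h1W n hn)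
  have hWne : W₁ ≠ ⊥ := by
    intro hb
    have : u ∈ W₁ := Submodule.subset_span (Set.mem_insert _ _)
    rw [hb] at this
    exact hu0 ((Submodule.mem_bot _).1 this)
  obtain ⟨hKdec, -⟩ := h.K_lemma hA0 W₁ h1W h2W h3W h4W hWne
  -- the coordinate map
  let G : ZMod 2 × ZMod 2 →ₗ[ZMod 2] M :=
    (LinearMap.toSpanSingleton (ZMod 2) M u).coprod (LinearMap.toSpanSingleton (ZMod 2) M (β u))
  let F : (ZMod 2 × ZMod 2) × (ZMod 2 × ZMod 2) →ₗ[ZMod 2] M := G.coprod (R ∘ₗ G)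
  have hG : ∀ c : ZMod 2 × ZMod 2, G c = c.1 • u + c.2 • β u := fun c => by simp [G]
  have hF : ∀ c : (ZMod 2 × ZMod 2) × (ZMod 2 × ZMod 2), F c = G c.1 + R (G c.2) :=
    fun c => by simp [F]
  have hGW : ∀ c, G c ∈ W₁ := fun c => (hW _).2 ⟨c.1, c.2, (hG c).symm⟩
  have hGinj : ∀ c, G c = 0 → c = 0 := by
    intro c hc
    rw [hG] at hc
    obtain ⟨c1, c2⟩ := c
    simp only at hc
    rcases zmod2_cases c1 with rfl | rfl <;> rcases zmod2_cases c2 with rfl | rfl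
    · rfl
    · exfalso
      have e : β u = 0 := by simpa using hc
      apply hu0
      rw [← h.hβ3 u, e, map_zero, map_zero]
    · exfalso
      exact hu0 (by simpa using hc)
    · exfalso
      have e : u + β u = 0 := by simpa using hc
      apply hu0
      rw [← h.hβ3 u, hββu, e, map_zero]
  have hFinj : Function.Injective F := by
    rw [← LinearMap.ker_eq_bot, LinearMap.ker_eq_bot']
    intro c hc
    rw [hF] at hc
    have hR0 : R (G c.2) = 0 := by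
      apply hA0
      · have e : R (G c.2) = G c.1 := char2_eq _ _ hc
        rw [e]
        exact h1W _ (hGW _)
      · rw [h.hβR, h1W _ (hGW _)]
    have h20 : c.2 = 0 := hGinj _ (h.hRinj _ hR0)
    have h10 : c.1 = 0 := by
      rw [hR0, add_zero] at hc
      exact hGinj _ hc
    exact Prod.ext h10 h20
  have hFsurj : Function.Surjective F := by
    intro m
    obtain ⟨x, hx, y, hy, rfl⟩ := hKdec m
    obtain ⟨c, d, rfl⟩ := (hW x).1 hx
    obtain ⟨c', d', rfl⟩ := (hW y).1 hy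
    exact ⟨((c, d), (c', d')), by rw [hF, hG, hG]⟩
  let e : ((ZMod 2 × ZMod 2) × (ZMod 2 × ZMod 2)) ≃ M := Equiv.ofBijective F ⟨hFinj, hFsurj⟩
  have he : ∀ c, e c = F c := fun c => rfl
  have hσG : ∀ c : ZMod 2 × ZMod 2, σ (G c) = G (c.1 + c.2, c.2) := by
    intro c
    rw [hG, hG]
    simp only [map_add, map_smul, huσ, hσβu, smul_add, add_smul]
    abel
  have hσF : ∀ c : (ZMod 2 × ZMod 2) × (ZMod 2 × ZMod 2),
      σ (F c) = F ((c.1.1 + c.1.2, c.1.2), c.2) := by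
    intro c
    rw [hF, hF, map_add, hσG]
    congr 1
    rw [h.hσR, h.hRRσ, h4W _ (hGW _)]
  have hRF : ∀ c : (ZMod 2 × ZMod 2) × (ZMod 2 × ZMod 2),
      R (F c) = F ((c.2.1 + c.2.2, c.2.2), c.1) := by
    intro c
    rw [hF, hF, map_add]
    have : R (R (G c.2)) = σ (G c.2) := by
      have := congrArg σ (h4W _ (hGW c.2))
      rwa [h.hσ2] at this
    rw [this, hσG, add_comm]
  refine ⟨?_, ?_, ?_⟩
  · rw [← Nat.card_congr e]
    simp [Nat.card_prod]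
  · have key : ∀ c : (ZMod 2 × ZMod 2) × (ZMod 2 × ZMod 2),
        (((c.1.1 + c.1.2, c.1.2), c.2) = c ∧
          ((c.1.1 + c.1.2, c.1.2), (c.2.1 + c.2.2, c.2.2)) = c) ↔
        (σ (e c) = e c ∧ R (R (e c)) = e c) := by
      intro c
      rw [he, hσF, hRF, hRF, hFinj.eq_iff, hFinj.eq_iff]
    rw [← Nat.card_congr (Equiv.subtypeEquiv e key), Nat.card_eq_fintype_card]
    decide
  · have key : ∀ c : (ZMod 2 × ZMod 2) × (ZMod 2 × ZMod 2),
        (((c.2.1 + c.2.2, c.2.2), (c.1.1 + c.1.2, c.1.2)) = c ∧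
          ((c.1.1 + c.1.2, c.1.2), (c.2.1 + c.2.2, c.2.2)) = c) ↔
        (R (σ (e c)) = e c ∧ R (R (e c)) = e c) := by
      intro c
      rw [he, hσF, hRF, hRF, hRF, hFinj.eq_iff, hFinj.eq_iff]
    rw [← Nat.card_congr (Equiv.subtypeEquiv e key), Nat.card_eq_fintype_card]
    decide

/-- The system for the other pair of lines. -/
theorem prime (h : Sys α β R σ) : Sys (α ∘ₗ β) (α ∘ₗ α ∘ₗ β) R (R ∘ₗ σ) := by
  refine ⟨?_, ?_, ?_, ?_, ?_, ?_, ?_, ?_, ?_, ?_, ?_⟩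
  · intro m
    simp only [LinearMap.comp_apply, map_add, h.hRα, h.hRβ, h.hσα, h.hσβ, h.hσR, h.hαβ, h.hα3,
      h.hβ3, h.hσ2, h.hR4]
  · intro m
    simp only [LinearMap.comp_apply, map_add, h.hRα, h.hRβ, h.hσα, h.hσβ, h.hσR, h.hαβ, h.hα3,
      h.hβ3, h.hσ2, h.hR4]
  · intro m
    simp only [LinearMap.comp_apply, map_add, h.hRα, h.hRβ, h.hσα, h.hσβ, h.hσR, h.hαβ, h.hα3,
      h.hβ3, h.hσ2, h.hR4]
  · intro m
    simp only [LinearMap.comp_apply, map_add, h.hRα, h.hRβ, h.hσα, h.hσβ, h.hσR, h.hαβ, h.hα3,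
      h.hβ3, h.hσ2, h.hR4]
  · intro m
    simp only [LinearMap.comp_apply, map_add, h.hRα, h.hRβ, h.hσα, h.hσβ, h.hσR, h.hαβ, h.hα3,
      h.hβ3, h.hσ2, h.hR4]
  · intro m
    simp only [LinearMap.comp_apply, map_add, h.hRα, h.hRβ, h.hσα, h.hσβ, h.hσR, h.hαβ, h.hα3,
      h.hβ3, h.hσ2, h.hR4]
  · intro m
    simp only [LinearMap.comp_apply, map_add, h.hRα, h.hRβ, h.hσα, h.hσβ, h.hσR, h.hαβ, h.hα3,
      h.hβ3, h.hσ2, h.hR4]
  · intro m
    simp only [LinearMap.comp_apply, map_add, h.hRα, h.hRβ, h.hσα, h.hσβ, h.hσR, h.hαβ, h.hα3,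
      h.hβ3, h.hσ2, h.hR4]
  · exact h.hR4
  · intro m
    simp only [LinearMap.comp_apply, map_add, h.hRα, h.hRβ, h.hσα, h.hσβ, h.hσR, h.hαβ, h.hα3,
      h.hβ3, h.hσ2, h.hR4]
  · intro N n1 n2 n3 n4
    apply h.hirr N _ _ n3
    · intro m hm
      have e : σ m = R (R (R ((R ∘ₗ σ) m))) := by
        simp only [LinearMap.comp_apply, h.hR4]
      rw [e]
      exact n3 _ (n3 _ (n3 _ (n4 m hm)))
    · intro m hm
      have e : α m = (α ∘ₗ β) ((α ∘ₗ α ∘ₗ β) ((α ∘ₗ α ∘ₗ β) ((α ∘ₗ β) ((α ∘ₗ α ∘ₗ β)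
          ((α ∘ₗ α ∘ₗ β) m))))) := by
        simp only [LinearMap.comp_apply, map_add, h.hαβ, h.hα3, h.hβ3]
      rw [e]
      exact n1 _ (n2 _ (n2 _ (n1 _ (n2 _ (n2 m hm)))))
    · intro m hm
      have e : β m = (α ∘ₗ β) ((α ∘ₗ α ∘ₗ β) ((α ∘ₗ β) ((α ∘ₗ α ∘ₗ β) m))) := by
        simp only [LinearMap.comp_apply, map_add, h.hαβ, h.hα3, h.hβ3]
      rw [e]
      exact n1 _ (n2 _ (n1 _ (n2 m hm)))

/-- The operator-level statement. -/
theorem main_ops [Finite M] [Nontrivial M] (h : Sys α β R σ) (hα1 : ∃ m, α m ≠ m) :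
    Nat.card M = 16 ∧
      ((Nat.card {m : M // σ m = m ∧ R (R m) = m} = 4 ∧
          Nat.card {m : M // R (σ m) = m ∧ R (R m) = m} = 2) ∨
        (Nat.card {m : M // σ m = m ∧ R (R m) = m} = 2 ∧
          Nat.card {m : M // R (σ m) = m ∧ R (R m) = m} = 4)) := by
  have hA0 := h.hA0 hα1
  rcases h.dich hA0 with hd | hd
  · obtain ⟨c1, c2, c3⟩ := h.core hA0 hd
    exact ⟨c1, Or.inl ⟨c2, c3⟩⟩
  · have hA0' : ∀ m, (α ∘ₗ β) m = m → (α ∘ₗ α ∘ₗ β) m = m → m = 0 := by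
      intro m e1 e2
      simp only [LinearMap.comp_apply] at e1 e2
      have ea : α m = m := by
        rw [e1] at e2
        exact e2
      have eb : β m = m := by
        calc β m = α (α (α (β m))) := (h.hα3 _).symm
          _ = m := by rw [e1, ea, ea]
      exact hA0 m ea eb
    obtain ⟨c1, c2, c3⟩ := h.prime.core hA0' hd
    refine ⟨c1, Or.inr ⟨?_, c2⟩⟩
    refine Eq.trans ?_ c3
    apply Nat.card_congr
    apply Equiv.subtypeEquivRight
    intro m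
    simp only [LinearMap.comp_apply]
    constructor
    · rintro ⟨e1, e2⟩
      refine ⟨?_, e2⟩
      rw [h.hRRσ, e2, e1]
    · rintro ⟨e1, e2⟩
      refine ⟨?_, e2⟩
      rw [h.hRRσ, e2] at e1
      exact e1

end Sys

end Cfsg.Agent.Lib.Helper70.S4407Core
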